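import Mathlib
import Cfsg.Agent.Base
import Cfsg.Agent.Lib.FGS83.BaseG
import Cfsg.Agent.Lib.KCl.Defs

/-! Vector stabilisers of small derived length in solvable linear groups: definitions (helper90). -/

set_option autoImplicit false
set_option linter.unusedSectionVars false

universe u

namespace H90.VS

open Subgroup MulAction H83.Base
open scoped commutatorElement

section ds

variable {G : Type*} [Group G] {H K : Subgroup G} {i j : ℕ}

/-- the `j`-th derived subgroup of `H`, inside `G` -/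
def ds (H : Subgroup G) (j : ℕ) : Subgroup G := (fun K : Subgroup G => ⁅K, K⁆)^[j] H

theorem ds_zero (H : Subgroup G) : ds H 0 = H := rfl

theorem ds_succ (H : Subgroup G) (j : ℕ) : ds H (j + 1) = ⁅ds H j, ds H j⁆ :=
  Function.iterate_succ_apply' _ _ _

theorem ds_one (H : Subgroup G) : ds H 1 = ⁅H, H⁆ := rfl

theorem ds_ds (H : Subgroup G) (k j : ℕ) : ds (ds H k) j = ds H (k + j) := by
  rw [add_comm]; exact (Function.iterate_add_apply _ _ _ _).symm

theorem ds_mono (h : H ≤ K) (j : ℕ) : ds H j ≤ ds K j := by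
  induction j with
  | zero => exact h
  | succ j ih => rw [ds_succ, ds_succ]; exact commutator_mono ih ih

theorem ds_le (H : Subgroup G) (j : ℕ) : ds H j ≤ H := by
  induction j with
  | zero => exact le_rfl
  | succ j ih =>
    rw [ds_succ]
    exact commutator_le.2 fun a ha b hb =>
      mul_mem (mul_mem (mul_mem (ih ha) (ih hb)) (inv_mem (ih ha))) (inv_mem (ih hb))

theorem ds_anti (H : Subgroup G) (h : i ≤ j) : ds H j ≤ ds H i := by
  obtain ⟨k, rfl⟩ := Nat.exists_eq_add_of_le h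
  rw [← ds_ds]; exact ds_le _ _

theorem map_ds {G' : Type*} [Group G'] (f : G →* G') (H : Subgroup G) (j : ℕ) :
    (ds H j).map f = ds (H.map f) j := by
  induction j with
  | zero => rfl
  | succ j ih => rw [ds_succ, ds_succ, map_commutator, ih]

theorem ds_top (G : Type*) [Group G] (j : ℕ) : ds (⊤ : Subgroup G) j = derivedSeries G j := by
  induction j with
  | zero => rfl
  | succ j ih => rw [ds_succ, ih, derivedSeries_succ]

theorem ds_eq_map (H : Subgroup G) (j : ℕ) : ds H j = (derivedSeries H j).map H.subtype := by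
  rw [← ds_top, map_ds, ← MonoidHom.range_eq_map, range_subtype]

theorem ds_normal (H : Subgroup G) [h : H.Normal] (j : ℕ) : (ds H j).Normal := by
  induction j with
  | zero => exact h
  | succ j ih => rw [ds_succ]; infer_instance

/-- the `j`-th derived subgroup of `H` acts trivially on `X` -/
def Tr (H : Subgroup G) (j : ℕ) (X : Type*) [SMul G X] : Prop := ∀ g ∈ ds H j, ∀ x : X, g • x = x

theorem Tr.mono {X : Type*} [SMul G X] (h : Tr K i X) (hH : H ≤ K) (hij : i ≤ j) : Tr H j X :=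
  fun g hg => h g (ds_mono hH i (ds_anti H hij hg))

/-- transport along a homomorphism `ψ : H →* G'` and an equivariant map `ι : Y → X` -/
theorem Tr.push {G' X Y : Type*} [Group G'] [SMul G X] [SMul G' Y] (ψ : H →* G') (ι : Y → X)
    (hψ : ∀ (g : H) (y : Y), ι (ψ g • y) = (g : G) • ι y) {H' : Subgroup G'}
    (hH : ∀ g, ψ g ∈ H') (h : Tr H' j Y) : ∀ g ∈ ds H j, ∀ y : Y, g • ι y = ι y := by
  intro g hg y
  rw [ds_eq_map, ← ds_top] at hg
  obtain ⟨g, hg, rfl⟩ := hg
  have h1 : ψ g ∈ ds H' j := ds_mono (K := H') (by rintro _ ⟨a, -, rfl⟩; exact hH a) j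
    (map_ds ψ ⊤ j ▸ mem_map_of_mem ψ hg)
  exact (hψ g y).symm.trans (congrArg ι (h _ h1 y))

theorem Tr.of_hom {G' X : Type*} [Group G'] [SMul G X] [SMul G' X] (ψ : G →* G')
    (hψ : ∀ (g : G) (x : X), ψ g • x = g • x) {H' : Subgroup G'} (hH : ∀ g ∈ H, ψ g ∈ H')
    (h : Tr H' j X) : Tr H j X :=
  Tr.push (ψ.comp H.subtype) id (fun g x => hψ g x) (fun g => hH g g.2) h

end ds

/-- solvable permutation groups of degree `≤ m` have derived length `≤ k` -/
def PP (m k : ℕ) : Prop :=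
  ∀ (G Ω : Type u) [Group G] [Finite G] [Finite Ω] [MulAction G Ω], Group.IsSolvable G →
    Nat.card Ω ≤ m → Tr (⊤ : Subgroup G) k Ω

/-- solvable irreducible groups on modules of order `≤ N` have derived length `≤ j` -/
def LP (N j : ℕ) : Prop :=
  ∀ (G V : Type u) [Group G] [Finite G] [AddCommGroup V] [Finite V] [DistribMulAction G V],
    Group.IsSolvable G → Irr G V → Nat.card V ≤ N → Tr (⊤ : Subgroup G) j V

/-- `t` points in different orbits, with stabilisers of derived length `≤ j` -/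
def Mo (j t : ℕ) (G V : Type*) [Group G] [MulAction G V] : Prop :=
  ∃ u : Fin t → V, (∀ (g : G) c c', g • u c = u c' → c = c') ∧ ∀ c, Tr (stabilizer G (u c)) j V

/-- `t` colourings with `s` colours in different orbits, with stabilisers of derived length `≤ k` -/
def Co (k s t : ℕ) (G Ω : Type*) [Group G] [MulAction G Ω] : Prop :=
  ∃ F : Fin t → Ω → Fin s, (∀ (g : G) c c', (∀ x, F c' (g • x) = F c x) → c = c') ∧
    ∀ c (H : Subgroup G), (∀ g ∈ H, ∀ x, F c (g • x) = F c x) → Tr H k Ω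

theorem PP.mono {m m' k k' : ℕ} (h : PP.{u} m k) (hm : m' ≤ m) (hk : k ≤ k') : PP.{u} m' k' :=
  fun G Ω _ _ _ _ hs hΩ => (h G Ω hs (hΩ.trans hm)).mono le_rfl hk

theorem LP.mono {m m' k k' : ℕ} (h : LP.{u} m k) (hm : m' ≤ m) (hk : k ≤ k') : LP.{u} m' k' :=
  fun G V _ _ _ _ _ hs hi hV => (h G V hs hi (hV.trans hm)).mono le_rfl hk

/-- an invariant set of at most `m` points -/
theorem PP.set {m k : ℕ} (h : PP.{u} m k) {G Ω : Type u} [Group G] [Finite G] [Finite Ω]
    [MulAction G Ω] (hs : Group.IsSolvable G) (H : Subgroup G) (X : Set Ω)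
    (hX : ∀ g ∈ H, ∀ x ∈ X, g • x ∈ X) (hm : X.ncard ≤ m) : ∀ g ∈ ds H k, ∀ x ∈ X, g • x = x := by
  letI : MulAction H X :=
    { smul := fun g x => ⟨g.1 • x.1, hX g g.2 x x.2⟩
      one_smul := fun x => Subtype.ext (one_smul G x.1)
      mul_smul := fun a b x => Subtype.ext (mul_smul a.1 b.1 x.1) }
  exact fun g hg x hx => Tr.push (MonoidHom.id H) (Subtype.val : X → Ω) (fun _ _ => rfl)
    (fun _ => mem_top _) (h H X inferInstance hm) g hg ⟨x, hx⟩

theorem Mo.of_hom {G G' V : Type*} [Group G] [Group G'] [MulAction G V] [MulAction G' V]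
    (ψ : G →* G') (hψ : ∀ (g : G) (x : V), ψ g • x = g • x) {j t : ℕ} (h : Mo j t G' V) :
    Mo j t G V := by
  obtain ⟨u, h1, h2⟩ := h
  exact ⟨u, fun g c c' e => h1 (ψ g) c c' (by rw [hψ, e]),
    fun c => (h2 c).of_hom ψ hψ fun g hg => (hψ g _).trans hg⟩

theorem Mo.mono {G V : Type*} [Group G] [MulAction G V] {j t j' t' : ℕ} (h : Mo j t G V)
    (hj : j ≤ j') (ht : t' ≤ t) : Mo j' t' G V := by
  obtain ⟨u, h1, h2⟩ := h
  exact ⟨fun c => u (Fin.castLE ht c), fun g c c' e => Fin.castLE_injective ht (h1 g _ _ e),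
    fun c => (h2 _).mono le_rfl hj⟩

/-- a system of imprimitivity given by projections -/
structure Sys {G V : Type*} [Group G] [AddCommGroup V] [DistribMulAction G V] (M : Subgroup G)
    (π : G ⧸ M → V →+ V) : Prop where
  idem : ∀ a v, π a (π a v) = π a v
  orth : ∀ a b, a ≠ b → ∀ v, π a (π b v) = 0
  sum : ∀ v, ∑ᶠ a, π a v = v
  eqv : ∀ (g : G) a v, π (g • a) (g • v) = g • π a v

/-- the quasi-primitive case -/
structure Fc {G : Type u} (K V : Type*) [Group G] [AddCommGroup V] [DistribMulAction G V] [Field K]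
    [Module K V] (B : Subgroup G) : Prop where
  solv : Group.IsSolvable G
  semi : ∀ (g : G) (k : K), ∃ k' : K, ∀ v : V, g • k • v = k' • g • v
  pre : Pre K (LinS G K V) (ScalS G K V)
  normal : B.Normal
  le : B ≤ LinS G K V
  sle : ScalS G K V ≤ B
  comm : ∀ x ∈ B, ∀ y ∈ B, ⁅x, y⁆ ∈ ScalS G K V
  cen : ∀ g ∈ LinS G K V, (∀ x ∈ B, Commute g x) → g ∈ ScalS G K V

theorem exists_fc {G : Type u} {K V : Type*} [Group G] [Finite G] [AddCommGroup V] [Nontrivial V]
    [DistribMulAction G V] [FaithfulSMul G V] [Field K] [Finite K] [Module K V]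
    (hs : Group.IsSolvable G)
    (semi : ∀ (g : G) (k : K), ∃ k' : K, ∀ v : V, g • k • v = k' • g • v)
    (hab : ∀ D : Subgroup G, D.Normal → (∀ d ∈ D, Lin K V d) →
      (∀ a ∈ D, ∀ b ∈ D, a * b = b * a) → ∀ d ∈ D, Scal K V d) : ∃ B : Subgroup G, Fc K V B := by
  obtain ⟨-, -, -, h, -⟩ := exists_ctx hs semi hab
  obtain ⟨B, h1, h2, h3, h4, h5⟩ := h.exists_B hs
  exact ⟨B, hs, semi, h, h1, h2, h3, h4, h5⟩

theorem force_eq : True := by
  have := @ds.eq_1.{0}
  have := @Tr.eq_1.{0, 0}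
  have := @PP.eq_1.{0}
  have := @LP.eq_1.{0}
  have := @Mo.eq_1.{0, 0}
  have := @Co.eq_1.{0, 0}
  trivial

end H90.VS
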