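import Mathlib
import Cfsg.Agent.Base
import Cfsg.Agent.Lib.VSt.Defs

set_option autoImplicit false
set_option linter.unusedSectionVars false

universe u

namespace H90.VS

open Subgroup MulAction H83.Base
open scoped commutatorElement

theorem exists_prime {G V : Type*} [Group G] [AddCommGroup V] [Finite V] [DistribMulAction G V]
    (hi : Irr G V) : ∃ p k : ℕ, p.Prime ∧ (∀ v : V, p • v = 0) ∧ Nat.card V = p ^ k := by
  haveI := hi.1
  obtain ⟨p, hp, hd⟩ := Nat.exists_prime_and_dvd (Finite.one_lt_card (α := V)).ne'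
  haveI := Fact.mk hp
  obtain ⟨v0, hv0⟩ := exists_prime_addOrderOf_dvd_card' (G := V) p hd
  let U : AddSubgroup V :=
    { carrier := {v | p • v = 0}
      add_mem' := fun {a b} ha hb => by
        change p • (a + b) = 0
        rw [smul_add, show p • a = 0 from ha, show p • b = 0 from hb, add_zero]
      zero_mem' := smul_zero p
      neg_mem' := fun {a} ha => by
        change p • (-a) = 0
        rw [smul_neg, show p • a = 0 from ha, neg_zero] }
  have hU : Invt G U := fun g v hv => by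
    change p • g • v = 0
    rw [← smul_comm g p v, show p • v = 0 from hv, smul_zero]
  have htop : U = ⊤ := (hi.2 U hU).resolve_left fun h => by
    have : v0 ∈ U := by
      change p • v0 = 0
      rw [← hv0]; exact addOrderOf_nsmul_eq_zero v0
    rw [h, AddSubgroup.mem_bot] at this
    rw [this, addOrderOf_zero] at hv0
    exact hp.one_lt.ne hv0
  have hall : ∀ v : V, p • v = 0 := fun v => (htop ▸ AddSubgroup.mem_top v : v ∈ U)
  have hP : IsPGroup p (Multiplicative V) := fun v => ⟨1, by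
    rw [pow_one]; exact Multiplicative.toAdd.injective (hall v.toAdd)⟩
  obtain ⟨k, hk⟩ := hP.exists_card_eq
  exact ⟨p, k, hp, hall, hk⟩

variable {G Ω : Type u} [Group G] [Finite G] [Finite Ω] [MulAction G Ω]

theorem AFM.faithful {T : Type u} [Group T] [Finite T] [MulAction T Ω] [FaithfulSMul T Ω]
    [IsPretransitive T Ω] (hs : Group.IsSolvable T) (x0 : Ω) (hx : IsCoatom (stabilizer T x0)) :
    ∃ (W : Type u) (_ : AddCommGroup W) (_ : DistribMulAction T W) (E : W ≃ Ω), Irr T W ∧
      ∀ (g : T) (w : W), g • E w = E (E.symm (g • E 0) + g • w) := by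
  classical
  have htop : (⊤ : Subgroup T) ≠ ⊥ := fun e => hx.1 (top_le_iff.1 (e ▸ bot_le))
  obtain ⟨M, p, -, hMn, hM0, -, hMc, -, -, -⟩ :=
    H1.exists_elementary_abelian_normal_le (⊤ : Subgroup T) htop inferInstance
  set L := stabilizer T x0 with hL
  have htr : ∀ U : Subgroup T, U.Normal → U ≠ ⊥ → ∀ g : T, ∃ u ∈ U, ∃ l ∈ L, u * l = g := by
    intro U hU hU0 g
    have h1 : ¬ U ≤ L := by
      intro hle
      apply hU0
      rw [eq_bot_iff]
      intro u hu
      refine mem_bot.2 (FaithfulSMul.eq_of_smul_eq_smul (α := Ω) fun x => ?_)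
      obtain ⟨k, rfl⟩ := exists_smul_eq T x0 x
      have : (k⁻¹ * u * k⁻¹⁻¹) • x0 = x0 := hle (hU.conj_mem u hu k⁻¹)
      rw [inv_inv, mul_smul, mul_smul, inv_smul_eq_iff] at this
      rw [this, one_smul]
    have h2 : U ⊔ L = ⊤ := hx.2 _ (right_lt_sup.2 h1)
    exact mem_sup_of_normal_left.1 (h2 ▸ mem_top g)
  have hcomm : ∀ a ∈ M, ∀ b ∈ M, a * b = b * a := fun a ha b hb =>
    congrArg Subtype.val (hMc.is_comm.comm ⟨a, ha⟩ ⟨b, hb⟩)
  have hreg : ∀ m ∈ M, m • x0 = x0 → m = 1 := by
    intro m hm h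
    refine FaithfulSMul.eq_of_smul_eq_smul (α := Ω) fun x => ?_
    obtain ⟨k, rfl⟩ := exists_smul_eq T x0 x
    obtain ⟨u, hu, l, hl, rfl⟩ := htr M hMn hM0 k
    rw [mul_smul, mem_stabilizer_iff.1 hl, ← mul_smul, hcomm m hm u hu, mul_smul, h, one_smul]
  letI : CommGroup M := IsMulCommutative.instCommGroup
  letI := conjAdd M (⊤ : Subgroup T)
  letI : DistribMulAction T (Additive M) :=
    DistribMulAction.compHom (Additive M) (Subgroup.topEquiv (G := T)).symm.toMonoidHom
  have hsm : ∀ (l : T) (v : Additive M), ((l • v).toMul : T) = l * v.toMul * l⁻¹ :=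
    fun l v => rfl
  let e : Additive M → Ω := fun v => (v.toMul : T) • x0
  have he : Function.Bijective e := by
    refine ⟨fun v w h => ?_, fun x => ?_⟩
    · have := hreg ((w.toMul : T)⁻¹ * v.toMul) (mul_mem (inv_mem w.toMul.2) v.toMul.2)
        (by rw [mul_smul, inv_smul_eq_iff]; exact h)
      exact Additive.toMul.injective (Subtype.ext (inv_mul_eq_one.1 this).symm)
    · obtain ⟨k, rfl⟩ := exists_smul_eq T x0 x
      obtain ⟨u, hu, l, hl, rfl⟩ := htr M hMn hM0 k
      exact ⟨Additive.ofMul ⟨u, hu⟩, by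
        simp only [e, toMul_ofMul, mul_smul, mem_stabilizer_iff.1 hl]⟩
  have hirr : Irr T (Additive M) := by
    refine ⟨(nontrivial_iff_ne_bot M).2 hM0, fun U hU => ?_⟩
    let U' : Subgroup T := (AddSubgroup.toSubgroup U).map M.subtype
    have hU' : U'.Normal := ⟨by
      rintro _ ⟨m, hm, rfl⟩ g
      exact ⟨g • Additive.ofMul m, hU _ _ hm, rfl⟩⟩
    by_cases h0 : U' = ⊥
    · left
      rw [eq_bot_iff]
      intro v hv
      have : (v.toMul : T) ∈ U' := ⟨v.toMul, hv, rfl⟩
      rw [h0, mem_bot] at this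
      exact AddSubgroup.mem_bot.2 (Additive.toMul.injective (Subtype.ext this))
    · right
      rw [eq_top_iff]
      intro v _
      obtain ⟨_, ⟨m, hm, rfl⟩, l, hl, h⟩ := htr U' hU' h0 v.toMul
      have hl' : l = (m : T)⁻¹ * v.toMul := by rw [← h]; simp
      have := hreg l (hl' ▸ mul_mem (inv_mem m.2) v.toMul.2) hl
      rw [this, mul_one] at h
      have : v = Additive.ofMul m := Additive.toMul.injective (Subtype.ext h.symm)
      rw [this]; exact hm
  let E := Equiv.ofBijective e he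
  refine ⟨Additive M, inferInstance, inferInstance, E, hirr, fun g w => ?_⟩
  have h1 : E (E.symm (g • E 0)) = g • E 0 := E.apply_symm_apply _
  generalize E.symm (g • E 0) = t at h1
  change (t.toMul : T) • x0 = g • (1 : T) • x0 at h1
  rw [one_smul] at h1
  change g • (w.toMul : T) • x0 = ((t.toMul : T) * (g * w.toMul * g⁻¹)) • x0
  rw [hcomm _ t.toMul.2 _ (hMn.conj_mem _ w.toMul.2 g), mul_smul, h1]
  simp only [mul_smul, inv_smul_smul]

theorem exists_affine [IsPretransitive G Ω] (hs : Group.IsSolvable G) (x0 : Ω)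
    (hx : IsCoatom (stabilizer G x0)) :
    ∃ (W : Type u) (_ : AddCommGroup W) (_ : DistribMulAction G W) (E : W ≃ Ω), Irr G W ∧
      ∀ (g : G) (w : W), g • E w = E (E.symm (g • E 0) + g • w) := by
  let φ := (toPermHom G Ω).rangeRestrict
  have hφ : Function.Surjective φ := MonoidHom.rangeRestrict_surjective _
  haveI : IsPretransitive (toPermHom G Ω).range Ω := ⟨fun x y => by
    obtain ⟨g, hg⟩ := exists_smul_eq G x y
    exact ⟨φ g, hg⟩⟩
  have hst : stabilizer G x0 = (stabilizer (toPermHom G Ω).range x0).comap φ := rfl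
  obtain ⟨W, i1, i2, E, h1, h2⟩ := AFM.faithful (T := (toPermHom G Ω).range) (Ω := Ω)
    (Group.isSolvable_of_surjective hφ) x0
    ⟨fun e => hx.1 (by rw [hst, e, comap_top]), fun D hD => by
      have := hx.2 (D.comap φ) (hst ▸ (comap_lt_comap_of_surjective hφ).2 hD)
      exact comap_injective hφ (this.trans (comap_top φ).symm)⟩
  refine ⟨W, i1, DistribMulAction.compHom W φ, E, ⟨h1.1, fun U hU => h1.2 U fun g v hv => ?_⟩,
    fun g w => h2 (φ g) w⟩
  obtain ⟨g, rfl⟩ := hφ g
  exact hU g v hv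

theorem tr_affine {W : Type*} [AddCommGroup W] [DistribMulAction G W] (E : W ≃ Ω)
    (hE : ∀ (g : G) (w : W), g • E w = E (E.symm (g • E 0) + g • w)) {j : ℕ}
    (h : Tr (⊤ : Subgroup G) j W) : Tr (⊤ : Subgroup G) (j + 1) Ω := by
  have key : ds (⊤ : Subgroup G) (j + 1) ≤ (toPermHom G Ω).ker := by
    rw [ds_succ]
    refine commutator_le.2 fun a ha b hb => ?_
    rw [MonoidHom.mem_ker, map_commutatorElement, commutatorElement_eq_one_iff_mul_comm]
    ext x
    obtain ⟨w, rfl⟩ := E.surjective x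
    change a • b • E w = b • a • E w
    rw [hE b w, hE a w, hE a (_ + _), hE b (_ + _), h a ha, h a ha, h b hb, h b hb, add_left_comm]
  intro g hg x
  exact congrArg (fun f : Equiv.Perm Ω => f x) (MonoidHom.mem_ker.1 (key hg))

theorem prime_degree [IsPretransitive G Ω] (hs : Group.IsSolvable G) (x0 : Ω)
    (hx : IsCoatom (stabilizer G x0)) (hp : (Nat.card Ω).Prime) :
    Tr (⊤ : Subgroup G) 2 Ω ∧
      ∀ x y : Ω, x ≠ y → ∀ g : G, g • x = x → g • y = y → ∀ z : Ω, g • z = z := by
  obtain ⟨W, i1, i2, E, -, hE⟩ := exists_affine hs x0 hx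
  haveI : Finite W := Finite.of_equiv _ E.symm
  haveI := Fact.mk hp
  have hW : Nat.card W = Nat.card Ω := Nat.card_congr E
  have hgen : ∀ a : W, a ≠ 0 → ∀ w : W, ∃ n : ℤ, n • a = w := fun a ha w =>
    AddSubgroup.mem_zmultiples_iff.1 (zmultiples_eq_top_of_prime_card hW ha ▸ AddSubgroup.mem_top w)
  refine ⟨tr_affine E hE (j := 1) ?_, fun x y hxy g hx hy z => ?_⟩
  · haveI : Nontrivial W := Finite.one_lt_card_iff_nontrivial.1 (hW ▸ hp.one_lt)
    obtain ⟨a, ha⟩ := exists_ne (0 : W)
    have key : ds (⊤ : Subgroup G) 1 ≤ (toPermHom G W).ker := by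
      rw [ds_one]
      refine commutator_le.2 fun g _ h _ => ?_
      rw [MonoidHom.mem_ker, map_commutatorElement, commutatorElement_eq_one_iff_mul_comm]
      ext w
      change g • h • w = h • g • w
      obtain ⟨n, rfl⟩ := hgen a ha w
      obtain ⟨i, hi⟩ := hgen a ha (g • a)
      obtain ⟨k, hk⟩ := hgen a ha (h • a)
      rw [smul_comm h n, smul_comm g n, smul_comm g n, smul_comm h n, ← hk, ← hi, smul_comm g k,
        smul_comm h i, ← hk, ← hi, smul_comm k i]
    intro g hg w
    exact congrArg (fun f : Equiv.Perm W => f w) (MonoidHom.mem_ker.1 (key hg))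
  · obtain ⟨a, rfl⟩ := E.surjective x
    obtain ⟨b, rfl⟩ := E.surjective y
    obtain ⟨c, rfl⟩ := E.surjective z
    rw [hE, E.apply_eq_iff_eq] at hx hy ⊢
    have hab : a - b ≠ 0 := sub_ne_zero.2 fun e => hxy (congrArg E e)
    have h1 : g • (a - b) = a - b := by
      rw [smul_sub]
      nth_rw 2 [← hx, ← hy]
      abel
    obtain ⟨n, hn⟩ := hgen _ hab (c - a)
    have h2 : g • (c - a) = c - a := by rw [← hn, smul_comm g n, h1]
    rw [smul_sub, sub_eq_sub_iff_add_eq_add] at h2
    have h3 : E.symm (g • E 0) = a - g • a := eq_sub_of_add_eq hx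
    rw [h3, sub_add_eq_add_sub, sub_eq_iff_eq_add, add_comm a, h2]

end H90.VS
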