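import Mathlib
import Cfsg.Agent.Base
import Cfsg.Agent.Lib.VSt.Defs

set_option autoImplicit false
set_option linter.unusedSectionVars false

universe u

namespace H90.VS

open Subgroup MulAction H83.Base
open scoped commutatorElement

namespace AR

theorem step8 {x y : ℕ} (h : 26 * y ≤ 27 * x) : y ^ 8 ≤ 2 * x ^ 8 := by
  have h1 : (26 * y) ^ 8 ≤ (27 * x) ^ 8 := Nat.pow_le_pow_left h 8
  rw [mul_pow, mul_pow] at h1
  generalize y ^ 8 = Y at h1 ⊢
  generalize x ^ 8 = X at h1 ⊢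
  norm_num at h1
  omega

theorem e26 (e : ℕ) (he : 26 ≤ e) : 8 * e ^ 8 + 1 < 3 ^ e := by
  induction e, he using Nat.le_induction with
  | base => norm_num
  | succ n hn ih =>
    have h := step8 (x := n) (y := n + 1) (by omega)
    rw [pow_succ 3 n]
    omega

theorem three_four (n : ℕ) : 3 ^ (n + 26) ≤ 4 ^ (n + 24) := by
  rw [pow_add, pow_add]
  exact Nat.mul_le_mul (Nat.pow_le_pow_left (by norm_num) n) (by norm_num)

theorem c61 (c : ℕ) (hc : 61 ≤ c) : 7 * (4 * c) ^ 8 < 3 ^ c := by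
  induction c, hc using Nat.le_induction with
  | base => norm_num
  | succ n hn ih =>
    have h := step8 (x := 4 * n) (y := 4 * (n + 1)) (by omega)
    rw [pow_succ 3 n]
    omega

theorem step6 {x y b : ℕ} (h : 6 * y ≤ 7 * x) :
    y ^ 4 * (y ^ 2 + b) ≤ 3 * (x ^ 4 * (x ^ 2 + b)) := by
  have h4 : (6 * y) ^ 4 ≤ (7 * x) ^ 4 := Nat.pow_le_pow_left h 4
  have h2 : (6 * y) ^ 2 ≤ (7 * x) ^ 2 := Nat.pow_le_pow_left h 2
  rw [mul_pow, mul_pow] at h4 h2
  have h2' : 6 ^ 2 * (y ^ 2 + b) ≤ 7 ^ 2 * (x ^ 2 + b) := by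
    generalize y ^ 2 = Y at h2 ⊢
    generalize x ^ 2 = X at h2 ⊢
    norm_num at h2 ⊢
    omega
  have h6 := Nat.mul_le_mul h4 h2'
  have e1 : 6 ^ 4 * y ^ 4 * (6 ^ 2 * (y ^ 2 + b)) = 46656 * (y ^ 4 * (y ^ 2 + b)) := by ring
  have e2 : 7 ^ 4 * x ^ 4 * (7 ^ 2 * (x ^ 2 + b)) = 117649 * (x ^ 4 * (x ^ 2 + b)) := by ring
  rw [e1, e2] at h6
  omega

theorem c10 (c : ℕ) (hc : 10 ≤ c) : (3 * c) ^ 4 * ((3 * c) ^ 2 + 2) ≤ 6 * 7 ^ c := by
  induction c, hc using Nat.le_induction with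
  | base => norm_num
  | succ n hn ih =>
    have h := step6 (x := 3 * n) (y := 3 * (n + 1)) (b := 2) (by omega)
    rw [pow_succ 7 n]
    omega

theorem c6 (c : ℕ) (hc : 6 ≤ c) : (5 * c) ^ 4 * ((5 * c) ^ 2 + 16) ≤ 640 * 11 ^ c := by
  induction c, hc using Nat.le_induction with
  | base => norm_num
  | succ n hn ih =>
    have h := step6 (x := 5 * n) (y := 5 * (n + 1)) (b := 16) (by omega)
    rw [pow_succ 11 n]
    omega

theorem k1 {q D c T : ℕ} (hq : 2 ≤ q) (hcD : c ≤ D) (hD : 1 ≤ D) (hT : 2 * T < q ^ c) :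
    1 + T * (q ^ D + q ^ c) < q ^ (D + c) := by
  have h1 : q ^ c ≤ q ^ D := Nat.pow_le_pow_right (by omega) hcD
  have h2 : 1 < q ^ D := Nat.one_lt_pow (by omega) (by omega)
  have h3 : T * (q ^ D + q ^ c) ≤ T * (q ^ D + q ^ D) := Nat.mul_le_mul_left _ (by omega)
  have h4 : q ^ D * (2 * T + 1) ≤ q ^ D * q ^ c := Nat.mul_le_mul_left _ hT
  rw [pow_add]
  nlinarith

theorem k2 {q D c T : ℕ} (hq : 2 ≤ q) (hcD : c ≤ D) (hD : 1 ≤ D)
    (hT : T * (q + 1) < q ^ (c + 1)) :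
    1 + T * (q ^ (D + 1) + q ^ c) < q ^ (D + 1 + c) := by
  have h1 : q ^ c ≤ q ^ D := Nat.pow_le_pow_right (by omega) hcD
  have h2 : 1 < q ^ D := Nat.one_lt_pow (by omega) (by omega)
  have h3 : T * (q ^ (D + 1) + q ^ c) ≤ T * (q ^ D * q + q ^ D) :=
    Nat.mul_le_mul_left _ (by rw [pow_succ]; omega)
  have h4 : q ^ D * (T * (q + 1) + 1) ≤ q ^ D * q ^ (c + 1) := Nat.mul_le_mul_left _ hT
  have h5 : q ^ (D + 1 + c) = q ^ D * q ^ (c + 1) := by ring
  rw [h5]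
  nlinarith

/-- monotonicity of the refined bound in `q` -/
theorem mono_q {q q0 c T : ℕ} (hq : q0 ≤ q) (h0 : 1 ≤ q0) (hT : T * (q0 + 1) < q0 ^ (c + 1)) :
    T * (q + 1) < q ^ (c + 1) := by
  have h1 : q0 ^ c ≤ q ^ c := Nat.pow_le_pow_left hq c
  have h2 : q0 * (q + 1) ≤ q * (q0 + 1) := by nlinarith
  have h3 : q0 * (T * (q + 1)) ≤ q * (T * (q0 + 1)) := by nlinarith
  have h4 : q * (T * (q0 + 1)) < q * q0 ^ (c + 1) := Nat.mul_lt_mul_of_pos_left hT (by omega)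
  have h5 : q * q0 ^ (c + 1) ≤ q0 * q ^ (c + 1) := by
    rw [pow_succ, pow_succ]
    have := Nat.mul_le_mul_left (q * q0) h1
    nlinarith
  exact Nat.lt_of_mul_lt_mul_left (a := q0) (by omega)

theorem pw {q q0 c c0 : ℕ} (hq : q0 ≤ q) (h0 : 1 ≤ q0) (hc : c0 ≤ c) : q0 ^ c0 ≤ q ^ c :=
  (Nat.pow_le_pow_left hq c0).trans (Nat.pow_le_pow_right (by omega) hc)

end AR

open AR

theorem ar26 {q a d e g : ℕ} (hq : 3 ≤ q) (ha : 2 ^ a ≤ q) (he : 26 ≤ e) (hed : e ≤ d)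
    (hg : g ≤ a * ((q - 1) * e ^ 8)) : 4 * g + 1 < q ^ d := by
  have hd : q ^ e ≤ q ^ d := Nat.pow_le_pow_right (by omega) hed
  have h26 := e26 e he
  refine lt_of_lt_of_le ?_ hd
  rcases Nat.eq_or_lt_of_le hq with h3 | h4
  · subst h3
    have ha1 : a ≤ 1 := by
      by_contra hc
      have : 2 ^ 2 ≤ 2 ^ a := Nat.pow_le_pow_right (by norm_num) (by omega)
      omega
    have : a * ((3 - 1) * e ^ 8) ≤ 1 * ((3 - 1) * e ^ 8) := Nat.mul_le_mul_right _ ha1
    omega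
  · have haq : a ≤ q := (Nat.lt_two_pow_self).le.trans ha
    obtain ⟨n, rfl⟩ : ∃ n, e = n + 26 := ⟨e - 26, by omega⟩
    have h34 := three_four n
    have hq4 : 4 ^ (n + 24) ≤ q ^ (n + 24) := Nat.pow_le_pow_left h4 _
    have hsplit : q ^ (n + 26) = q * q * q ^ (n + 24) := by ring
    have h1 : a * ((q - 1) * (n + 26) ^ 8) ≤ q * (q * (n + 26) ^ 8) :=
      Nat.mul_le_mul haq (Nat.mul_le_mul_right _ (by omega))
    have h2 : q * q * (8 * (n + 26) ^ 8 + 2) ≤ q * q * q ^ (n + 24) :=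
      Nat.mul_le_mul_left _ (by omega)
    have h3 : 1 ≤ q * q := Nat.mul_pos (by omega) (by omega)
    rw [hsplit]
    generalize (n + 26) ^ 8 = E at h1 h2 hg
    nlinarith

theorem ar243 {q a d e g T : ℕ} (hq : 3 ≤ q) (ha : 2 ^ a ≤ q) (he : 243 ≤ e) (hed : e ≤ d)
    (hg : g ≤ a * ((q - 1) * e ^ 8)) (hT : T ≤ e ^ 8) :
    4 * g + 1 + T * (q ^ ((d + d / 2) / 2) + q ^ (d - (d + d / 2) / 2)) < q ^ d := by
  obtain ⟨D, hD⟩ : ∃ D, D = (d + d / 2) / 2 := ⟨_, rfl⟩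
  obtain ⟨c, hc⟩ : ∃ c, c = d - D := ⟨_, rfl⟩
  rw [← hD, ← hc]
  have hd : d = D + c := by omega
  have hcD : c ≤ D := by omega
  have h4c : e ≤ 4 * c := by omega
  have h61 := c61 c (by omega)
  have hE : e ^ 8 ≤ (4 * c) ^ 8 := Nat.pow_le_pow_left h4c 8
  have hqc : 3 ^ c ≤ q ^ c := Nat.pow_le_pow_left hq c
  have haq : a ≤ q := (Nat.lt_two_pow_self).le.trans ha
  have h1 : a * ((q - 1) * e ^ 8) ≤ q * (q * e ^ 8) :=
    Nat.mul_le_mul haq (Nat.mul_le_mul_right _ (by omega))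
  have h2 : q ^ 2 ≤ q ^ D := Nat.pow_le_pow_right (by omega) (by omega)
  have h3 : q ^ c ≤ q ^ D := Nat.pow_le_pow_right (by omega) hcD
  have h4 : 1 ≤ e ^ 8 := Nat.one_le_pow _ _ (by omega)
  have h5 : 1 ≤ q ^ D := Nat.one_le_pow _ _ (by omega)
  have h6 : g ≤ q ^ D * e ^ 8 := by
    have : q * (q * e ^ 8) = q ^ 2 * e ^ 8 := by ring
    have := Nat.mul_le_mul_right (e ^ 8) h2
    omega
  have h7 : T * (q ^ D + q ^ c) ≤ e ^ 8 * (q ^ D + q ^ D) := Nat.mul_le_mul hT (by omega)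
  have h8 : q ^ D * (7 * e ^ 8 + 1) ≤ q ^ D * q ^ c := Nat.mul_le_mul_left _ (by omega)
  have h9 : 1 ≤ q ^ D * e ^ 8 := Nat.mul_pos h5 h4
  have h10 : q ^ d = q ^ D * q ^ c := by rw [← pow_add, ← hd]
  rw [h10]
  generalize e ^ 8 = E at *
  generalize q ^ D = X at *
  nlinarith

theorem ar_odd {q d e f T r : ℕ} (hq : IsPrimePow q) (hqo : Odd q) (he : Odd e) (h3 : 3 ≤ e)
    (hed : e ≤ d) (hr : r = if 3 ∣ e then 3 else 5)
    (hdv : ∀ s : ℕ, s.Prime → s ∣ e → s ∣ q - 1) (hT : 2 * T < e ^ 2 * f)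
    (hg : ∀ r' : ℕ, (∀ s : ℕ, s.Prime → s ∣ e → r' ≤ s) →
      2 * r' * f ≤ (e ^ 2 - 1) * e ^ 2 + r' * e ^ 2)
    (h9 : e = 3 → f ≤ 1) (h25 : e = 5 → f ≤ 3) (h81 : e = 9 → f ≤ 5) :
    1 + T * (q ^ ((d + d / r) / 2) + q ^ (d - (d + d / r) / 2)) < q ^ d := by
  have hq2 : 2 ≤ q := hq.two_le
  have hqo' : q % 2 = 1 := Nat.odd_iff.1 hqo
  have he' : e % 2 = 1 := Nat.odd_iff.1 he
  have hs3 : ∀ s : ℕ, s.Prime → s ∣ e → 3 ≤ s := by
    intro s hs hse
    have h2 := hs.two_le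
    by_contra hc
    have : s = 2 := by omega
    subst this
    omega
  have hE1 : 1 ≤ e ^ 2 := Nat.one_le_pow _ _ (by omega)
  obtain ⟨D, hD⟩ : ∃ D, D = (d + d / r) / 2 := ⟨_, rfl⟩
  obtain ⟨c, hc⟩ : ∃ c, c = d - D := ⟨_, rfl⟩
  rw [← hD, ← hc]
  by_cases h3e : 3 ∣ e
  · rw [if_pos h3e] at hr
    subst hr
    have hd : d = D + c := by omega
    have hcD : c ≤ D := by omega
    have hD1 : 1 ≤ D := by omega
    have h3c : d ≤ 3 * c := by omega
    have hq3 := hdv 3 Nat.prime_three h3e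
    have hq7 : 7 ≤ q := by omega
    have hf := hg 3 hs3
    have hf' : 6 * (e ^ 2 * f) ≤ e ^ 4 * (e ^ 2 + 2) := by
      have h1 : 6 * f ≤ e ^ 2 * (e ^ 2 + 2) := by
        obtain ⟨E, hE⟩ : ∃ E, e ^ 2 = E + 1 := ⟨e ^ 2 - 1, by omega⟩
        rw [hE] at hf ⊢
        simp only [Nat.add_sub_cancel] at hf
        nlinarith
      have h2 := Nat.mul_le_mul_left (e ^ 2) h1
      have h4 : e ^ 2 * (e ^ 2 * (e ^ 2 + 2)) = e ^ 4 * (e ^ 2 + 2) := by ring
      have h5 : e ^ 2 * (6 * f) = 6 * (e ^ 2 * f) := by ring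
      omega
    by_cases hc10 : 10 ≤ c
    · have h1 := c10 c hc10
      have hec : e ≤ 3 * c := by omega
      have h2 : e ^ 4 * (e ^ 2 + 2) ≤ (3 * c) ^ 4 * ((3 * c) ^ 2 + 2) :=
        Nat.mul_le_mul (Nat.pow_le_pow_left hec 4)
          (Nat.add_le_add_right (Nat.pow_le_pow_left hec 2) 2)
      have h4 : 7 ^ c ≤ q ^ c := Nat.pow_le_pow_left hq7 c
      rw [hd]
      exact k1 hq2 hcD hD1 (by omega)
    · have hcases : e = 3 ∨ e = 9 ∨ e = 15 ∨ e = 21 ∨ e = 27 := by omega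
      rcases hcases with rfl | rfl | rfl | rfl | rfl
      · have hf1 := h9 rfl
        by_cases hc2 : 2 ≤ c
        · have h4 : 7 ^ 2 ≤ q ^ c := pw hq7 (by norm_num) hc2
          rw [hd]
          exact k1 hq2 hcD hD1 (by omega)
        · have hc1 : c = 1 := by omega
          have hD2 : D = 1 + 1 := by omega
          rw [hd, hc1, hD2]
          exact k2 hq2 le_rfl le_rfl (mono_q hq7 (by norm_num) (by omega))
      · have hf1 := h81 rfl
        by_cases hc2 : 4 ≤ c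
        · have h4 : 7 ^ 4 ≤ q ^ c := pw hq7 (by norm_num) hc2
          rw [hd]
          exact k1 hq2 hcD hD1 (by omega)
        · have hc1 : c = 3 := by omega
          have hD2 : D = 5 + 1 := by omega
          rw [hd, hc1, hD2]
          exact k2 hq2 (by norm_num) (by norm_num) (mono_q hq7 (by norm_num) (by omega))
      · have hq5 := hdv 5 Nat.prime_five (by norm_num)
        have hq31 : 31 ≤ q := by omega
        have h4 : 31 ^ 5 ≤ q ^ c := pw hq31 (by norm_num) (by omega)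
        rw [hd]
        exact k1 hq2 hcD hD1 (by omega)
      · have hq5 := hdv 7 Nat.prime_seven (by norm_num)
        have hq31 : 43 ≤ q := by omega
        have h4 : 43 ^ 7 ≤ q ^ c := pw hq31 (by norm_num) (by omega)
        rw [hd]
        exact k1 hq2 hcD hD1 (by omega)
      · have hc1 : c = 9 := by omega
        have hD2 : D = 17 + 1 := by omega
        rw [hd, hc1, hD2]
        exact k2 hq2 (by norm_num) (by norm_num) (mono_q hq7 (by norm_num) (by omega))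
  · rw [if_neg h3e] at hr
    subst hr
    have he5 : 5 ≤ e := by omega
    have hd : d = D + c := by omega
    have hcD : c ≤ D := by omega
    have hD1 : 1 ≤ D := by omega
    have h5c : 2 * d ≤ 5 * c := by omega
    have hs5 : ∀ s : ℕ, s.Prime → s ∣ e → 5 ≤ s := by
      intro s hs hse
      have h1 := hs3 s hs hse
      by_contra hc
      have : s = 3 ∨ s = 4 := by omega
      rcases this with rfl | rfl
      · exact h3e hse
      · exact absurd hs (by norm_num)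
    have hq11 : 11 ≤ q := by
      obtain ⟨s, hs, hse⟩ := Nat.exists_prime_and_dvd (n := e) (by omega)
      have h1 := hs5 s hs hse
      obtain ⟨k, hk⟩ := hdv s hs hse
      have hso : s % 2 = 1 := by
        rcases hs.eq_two_or_odd with h | h
        · omega
        · exact h
      have hk0 : k ≠ 0 := by
        rintro rfl
        omega
      have hk1 : k ≠ 1 := by
        rintro rfl
        omega
      have : 5 * 2 ≤ s * k := Nat.mul_le_mul h1 (by omega)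
      omega
    have hf := hg 5 hs5
    have hf' : 10 * (e ^ 2 * f) ≤ e ^ 4 * (e ^ 2 + 4) := by
      have h1 : 10 * f ≤ e ^ 2 * (e ^ 2 + 4) := by
        obtain ⟨E, hE⟩ : ∃ E, e ^ 2 = E + 1 := ⟨e ^ 2 - 1, by omega⟩
        rw [hE] at hf ⊢
        simp only [Nat.add_sub_cancel] at hf
        nlinarith
      have h2 := Nat.mul_le_mul_left (e ^ 2) h1
      have h4 : e ^ 2 * (e ^ 2 * (e ^ 2 + 4)) = e ^ 4 * (e ^ 2 + 4) := by ring
      have h5 : e ^ 2 * (10 * f) = 10 * (e ^ 2 * f) := by ring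
      omega
    rw [hd]
    refine k1 hq2 hcD hD1 ?_
    by_cases hc6 : 6 ≤ c
    · have h1 := c6 c hc6
      have hec : 2 * e ≤ 5 * c := by omega
      have h2 : (2 * e) ^ 4 * ((2 * e) ^ 2 + 16) ≤ (5 * c) ^ 4 * ((5 * c) ^ 2 + 16) :=
        Nat.mul_le_mul (Nat.pow_le_pow_left hec 4)
          (Nat.add_le_add_right (Nat.pow_le_pow_left hec 2) 16)
      have h4 : 11 ^ c ≤ q ^ c := Nat.pow_le_pow_left hq11 c
      have h5 : (2 * e) ^ 4 * ((2 * e) ^ 2 + 16) = 64 * (e ^ 4 * (e ^ 2 + 4)) := by ring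
      omega
    · have hcases : e = 5 ∨ e = 7 ∨ e = 11 := by omega
      rcases hcases with rfl | rfl | rfl
      · have hf1 := h25 rfl
        have h4 : 11 ^ 2 ≤ q ^ c := pw hq11 (by norm_num) (by omega)
        omega
      · have hq5 := hdv 7 Nat.prime_seven (by norm_num)
        have hq15 : q ≠ 15 := by
          rintro rfl
          obtain ⟨p, k, hp, -, hpk⟩ := (isPrimePow_nat_iff 15).1 hq
          have h3p : 3 ∣ p ^ k := by rw [hpk]; norm_num
          have h5p : 5 ∣ p ^ k := by rw [hpk]; norm_num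
          have e3 := (Nat.prime_dvd_prime_iff_eq Nat.prime_three hp).1
            (Nat.prime_three.dvd_of_dvd_pow h3p)
          have e5 := (Nat.prime_dvd_prime_iff_eq Nat.prime_five hp).1
            (Nat.prime_five.dvd_of_dvd_pow h5p)
          omega
        have hq29 : 29 ≤ q := by omega
        have h4 : 29 ^ 3 ≤ q ^ c := pw hq29 (by norm_num) (by omega)
        omega
      · have hq5 := hdv 11 Nat.prime_eleven (by norm_num)
        have hq23 : 23 ≤ q := by omega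
        have h4 : 23 ^ 5 ≤ q ^ c := pw hq23 (by norm_num) (by omega)
        omega

end H90.VS
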