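import Mathlib
import Cfsg.Agent.Base
import Cfsg.Agent.Lib.VSt.AFM

set_option autoImplicit false
set_option linter.unusedSectionVars false

universe u

namespace H90.VS

open Subgroup MulAction H83.Base
open scoped commutatorElement

namespace PI

/-- the table -/
def pi (m : ℕ) : ℕ :=
  if m ≤ 1 then 0 else if m ≤ 2 then 1 else if m ≤ 3 then 2 else if m ≤ 7 then 3
  else if m ≤ 8 then 4 else 5

theorem eqns_pi : True := by
  have := @pi.eq_1
  trivial

theorem pi_mono : ∀ b ≤ 15, ∀ a ≤ b, pi a ≤ pi b := by decide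

theorem pi_mul : ∀ a ≤ 15, ∀ b ≤ 15, 2 ≤ a → 2 ≤ b → a * b ≤ 15 → pi a + pi b ≤ pi (a * b) := by
  decide

theorem pi_prime : ∀ m ≤ 15, 3 ≤ m → 2 ≤ pi m := by decide

theorem pi_pow (p k : ℕ) (hp : p.Prime) (h : p ^ k ≤ 15) (h2 : 2 ≤ p ^ k) :
    (p ^ k).Prime ∧ 3 ≤ p ^ k ∨ pi (p ^ k - 1) + 1 ≤ pi (p ^ k) := by
  have hk : k ≤ 3 := by
    by_contra hk
    have : 2 ^ 4 ≤ p ^ k := (Nat.pow_le_pow_left hp.two_le 4).trans
      (Nat.pow_le_pow_right hp.pos (by omega))
    omega
  rcases k with _ | k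
  · simp at h2
  have hp15 : p ≤ 15 := (Nat.le_self_pow (by omega) p).trans h
  have hk' : k ≤ 2 := by omega
  interval_cases p <;> first
    | (exfalso; revert hp; norm_num; done)
    | (interval_cases k <;> first | omega | (right; decide) | (left; norm_num))

theorem trans {m : ℕ} (hm : m ≤ 15) (ih : ∀ k < m, PP.{u} k (pi k)) {G Ω : Type u} [Group G]
    [Finite G] [Finite Ω] [MulAction G Ω] [IsPretransitive G Ω] (hs : Group.IsSolvable G)
    (hΩ : Nat.card Ω = m) : Tr (⊤ : Subgroup G) (pi m) Ω := by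
  classical
  intro g0 hg0 x0
  by_cases htop : stabilizer G x0 = ⊤
  · exact mem_stabilizer_iff.1 (htop ▸ mem_top g0)
  have hidx : (stabilizer G x0).index = m := by rw [index_stabilizer_of_transitive, hΩ]
  have hm2 : 2 ≤ m := by
    have h1 : (stabilizer G x0).index ≠ 1 := fun e => htop (index_eq_one.1 e)
    have h0 : (stabilizer G x0).index ≠ 0 := index_ne_zero_of_finite
    omega
  by_cases hco : IsCoatom (stabilizer G x0)
  · obtain ⟨W, i1, i2, E, hi, hE⟩ := exists_affine hs x0 hco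
    haveI : Finite W := Finite.of_equiv _ E.symm
    have hW : Nat.card W = m := (Nat.card_congr E).trans hΩ
    obtain ⟨p, k, hp, -, hk⟩ := exists_prime hi
    have hpk : m = p ^ k := hW.symm.trans hk
    rcases pi_pow p k hp (hpk ▸ hm) (hpk ▸ hm2) with ⟨h1, h2⟩ | h1
    · rw [← hpk] at h1 h2
      exact ((prime_degree hs x0 hco (hΩ ▸ h1)).1.mono le_rfl (pi_prime m hm h2)) g0 hg0 x0
    · rw [← hpk] at h1
      refine ((tr_affine E hE (j := pi (m - 1)) fun g hg w => ?_).mono le_rfl h1) g0 hg0 x0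
      by_cases hw : w = 0
      · rw [hw, smul_zero]
      refine (ih (m - 1) (by omega)).set hs ⊤ ({0}ᶜ : Set W) (fun a _ x hx e => hx ?_) ?_ g hg w hw
      · exact (smul_eq_zero_iff_eq a).1 e
      · have := Set.ncard_add_ncard_compl ({0} : Set W)
        rw [Set.ncard_singleton, hW] at this
        omega
  · obtain ⟨M, hM1, hM2⟩ : ∃ M, stabilizer G x0 < M ∧ M ≠ ⊤ := by
      by_contra hc
      push Not at hc
      exact hco ⟨htop, hc⟩
    have hab : (stabilizer G x0).relIndex M * M.index = m := by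
      rw [relIndex_mul_index hM1.le, hidx]
    set a := M.index with ha
    set b := (stabilizer G x0).relIndex M with hb
    have ha2 : 2 ≤ a := by
      have h1 : M.index ≠ 1 := fun e => hM2 (index_eq_one.1 e)
      have h0 : M.index ≠ 0 := index_ne_zero_of_finite
      omega
    have hb2 : 2 ≤ b := by
      have h1 : b ≠ 1 := fun e => hM1.not_ge (relIndex_eq_one.1 e)
      have h0 : b ≠ 0 := fun e => by rw [e] at hab; omega
      omega
    have ham : a < m := by nlinarith
    have hbm : b < m := by nlinarith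
    have hle : pi a + pi b ≤ pi m := by
      rw [← hab, mul_comm]
      exact pi_mul a (by omega) b (by omega) ha2 hb2 (by rw [mul_comm, hab]; exact hm)
    have hg1 : g0 ∈ ds (ds (⊤ : Subgroup G) (pi a)) (pi b) := by
      rw [ds_ds]; exact ds_anti _ hle hg0
    have hH : ds (⊤ : Subgroup G) (pi a) ≤ M := fun g hg => by
      have := ih a ham G (G ⧸ M) hs le_rfl g hg ((1 : G) : G ⧸ M)
      simpa using inv_mem (QuotientGroup.eq.1 this)
    refine (ih b hbm).set hs _ (orbit M x0) ?_ ?_ g0 hg1 x0 (mem_orbit_self x0)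
    · rintro g hg _ ⟨c, rfl⟩
      exact ⟨⟨g, hH hg⟩ * c, mul_smul _ _ _⟩
    · rw [← index_stabilizer M x0]
      exact le_rfl

theorem all (m : ℕ) : m ≤ 15 → PP.{u} m (pi m) := by
  induction m using Nat.strong_induction_on with
  | _ m ih =>
  intro hm G Ω _ _ _ _ hs hΩ g hg x
  have ih' : ∀ k < m, PP.{u} k (pi k) := fun k hk => ih k hk (by omega)
  by_cases h : (orbit G x).ncard < m
  · exact ((ih' _ h).mono le_rfl (pi_mono m hm _ h.le)).set hs ⊤ (orbit G x)
      (fun a _ y hy => mem_orbit_of_mem_orbit a hy) le_rfl g hg x (mem_orbit_self x)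
  · have h1 : (orbit G x).ncard ≤ Nat.card Ω := Set.ncard_le_card _
    have h2 : orbit G x = Set.univ :=
      Set.eq_of_subset_of_ncard_le (Set.subset_univ _) (by rw [Set.ncard_univ]; omega)
    haveI : IsPretransitive G Ω := (isPretransitive_iff_orbit_eq_univ x).2 h2
    exact trans hm ih' hs (by omega) g hg x

end PI

theorem pp0 : PP.{u} 1 0 := PI.all 1 (by omega)

theorem pp1 : PP.{u} 2 1 := PI.all 2 (by omega)

theorem pp2 : PP.{u} 3 2 := PI.all 3 (by omega)

theorem pp3 : PP.{u} 7 3 := PI.all 7 (by omega)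

theorem pp5 : PP.{u} 15 5 := PI.all 15 (by omega)

end H90.VS
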