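import Mathlib
import Cfsg.Agent.Base
import Cfsg.Agent.Lib.VSt.PI

/-! Colourings with 5 and 2 colours of primitive solvable permutation groups (helper32). -/

set_option autoImplicit false
set_option linter.unusedSectionVars false

universe u

namespace H90.VS

open Subgroup MulAction H83.Base
open scoped commutatorElement

variable {G Ω : Type u} [Group G] [Finite G] [Finite Ω] [MulAction G Ω]

namespace CO2

theorem co_sizes {k t : ℕ} (s : Fin t → ℕ) (hs : Function.Injective s)
    (h : ∀ c, ∃ X : Set Ω, X.ncard = s c ∧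
      ∀ H : Subgroup G, (∀ g ∈ H, ∀ x, g • x ∈ X ↔ x ∈ X) → Tr H k Ω) : Co k 2 t G Ω := by
  classical
  choose X hX hT using h
  have key : ∀ (g : G) c c', (∀ x, (if g • x ∈ X c' then (1 : Fin 2) else 0) =
      if x ∈ X c then 1 else 0) → ∀ x, g • x ∈ X c' ↔ x ∈ X c := by
    intro g c c' e x
    have := e x
    by_cases h1 : g • x ∈ X c' <;> by_cases h2 : x ∈ X c <;> simp_all
  refine ⟨fun c x => if x ∈ X c then 1 else 0, fun g c c' e => hs ?_,
    fun c H e => hT c H fun g hg => key g c c (e g hg)⟩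
  have e' := key g c c' e
  have : X c' = (fun x => g • x) '' X c := by
    ext y
    constructor
    · intro hy
      exact ⟨g⁻¹ • y, (e' _).1 (by rwa [smul_inv_smul]), smul_inv_smul g y⟩
    · rintro ⟨x, hx, rfl⟩
      exact (e' x).2 hx
  rw [← hX c, ← hX c', this, Set.ncard_image_of_injective _ (MulAction.injective g)]

theorem co_of_tr {k t : ℕ} (h : Tr (⊤ : Subgroup G) k Ω) (ht : t ≤ Nat.card Ω + 1) :
    Co k 2 t G Ω := by
  refine co_sizes (fun c => c.1) Fin.val_injective fun c => ?_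
  have hc : c.1 ≤ (Set.univ : Set Ω).ncard := by
    rw [Set.ncard_univ]; have := c.2; omega
  obtain ⟨X, -, hX⟩ := Set.exists_subset_card_eq hc
  exact ⟨X, hX, fun H _ => h.mono le_top le_rfl⟩

theorem exists_base [IsPretransitive G Ω] (hs : Group.IsSolvable G) (x0 : Ω)
    (hx : IsCoatom (stabilizer G x0)) :
    ∃ B : Set Ω, B.ncard ≤ 4 ∧ ∀ g : G, (∀ x ∈ B, g • x = x) → ∀ x : Ω, g • x = x := by
  obtain ⟨W, _, _, E, hi, hE⟩ := exists_affine hs x0 hx
  haveI : Finite W := Finite.of_equiv Ω E.symm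
  obtain ⟨v, hv⟩ := ModP.base (fun N => modP_three.{u} N) hs (Nat.coprime_one_right _)
    (fun v : W => zero_smul ℕ v) hi
  refine ⟨{E 0, E (v 0), E (v 1), E (v 2)}, ?_, fun g hg x => ?_⟩
  · refine (Set.ncard_insert_le _ _).trans (Nat.succ_le_succ ?_)
    refine (Set.ncard_insert_le _ _).trans (Nat.succ_le_succ ?_)
    refine (Set.ncard_insert_le _ _).trans (Nat.succ_le_succ ?_)
    exact (Set.ncard_singleton _).le
  · have h0 : g • E 0 = E 0 := hg _ (by simp)
    have h1 : ∀ w, g • E w = E (g • w) := fun w => by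
      rw [hE, h0, E.symm_apply_apply, zero_add]
    have h2 : ∀ j, g • v j = v j := fun j => by
      apply E.injective
      rw [← h1]
      apply hg
      fin_cases j <;> simp
    obtain ⟨w, rfl⟩ := E.surjective x
    rw [h1, hv g h2]

theorem good (hs : Group.IsSolvable G) {B : Set Ω} (hB : B.ncard ≤ 4)
    (hb : ∀ g : G, (∀ x ∈ B, g • x = x) → ∀ x : Ω, g • x = x) {n : ℕ} (h4 : 4 ≤ n) (h7 : n ≤ 7)
    (hn : n ≤ Nat.card Ω) : ∃ X : Set Ω, X.ncard = n ∧
      ∀ H : Subgroup G, (∀ g ∈ H, ∀ x, g • x ∈ X ↔ x ∈ X) → Tr H 3 Ω := by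
  obtain ⟨X, hBX, -, hX⟩ := Set.exists_subsuperset_card_eq (Set.subset_univ B) (hB.trans h4)
    (by rwa [Set.ncard_univ])
  refine ⟨X, hX, fun H hH g hg => hb g fun x hx => ?_⟩
  exact pp3.set hs H X (fun g hg x hx => (hH g hg x).2 hx) (hX ▸ h7) g hg x (hBX hx)

theorem good_compl {k n : ℕ} (h : ∃ X : Set Ω, X.ncard = n ∧
      ∀ H : Subgroup G, (∀ g ∈ H, ∀ x, g • x ∈ X ↔ x ∈ X) → Tr H k Ω) :
    ∃ X : Set Ω, X.ncard = Nat.card Ω - n ∧
      ∀ H : Subgroup G, (∀ g ∈ H, ∀ x, g • x ∈ X ↔ x ∈ X) → Tr H k Ω := by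
  obtain ⟨X, hX, hT⟩ := h
  refine ⟨Xᶜ, ?_, fun H hH => hT H fun g hg x => not_iff_not.1 (hH g hg x)⟩
  have := Set.ncard_add_ncard_compl X
  omega

end CO2

open CO2

theorem co_five [IsPretransitive G Ω] (hs : Group.IsSolvable G) (x0 : Ω)
    (hx : IsCoatom (stabilizer G x0)) : Co 0 5 5 G Ω := by
  obtain ⟨F, hF⟩ := prim_general (affP_five.{u} 1 (Nat.card Ω)) hs (Nat.coprime_one_right _)
    le_rfl x0 hx
  refine ⟨fun (c : ZMod 5) x => (F x + c : ZMod 5), fun g (c : ZMod 5) (c' : ZMod 5) e => ?_,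
    fun (c : ZMod 5) H e g hg => ?_⟩
  · have := (hF g (c - c') fun x => by
      have h : F (g • x) + c' = F x + c := e x
      linear_combination h).1
    exact sub_eq_zero.1 this
  · refine (hF g 0 fun x => ?_).2
    have h : F (g • x) + c = F x + c := e g hg x
    linear_combination h

theorem co_odd (hs : Group.IsSolvable G) (ho : Odd (Nat.card G)) : Co 0 2 1 G Ω := by
  obtain ⟨F, hF⟩ := permP_of_affP (affP_two.{u} (Nat.card Ω) (modP_odd _)) G Ω hs
    ho.coprime_two_right le_rfl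
  exact ⟨fun _ x => (F x : ZMod 2), fun _ _ _ _ => Subsingleton.elim _ _,
    fun _ H e g hg => hF g (e g hg)⟩

theorem co_two [IsPretransitive G Ω] (hs : Group.IsSolvable G) (x0 : Ω)
    (hx : IsCoatom (stabilizer G x0)) : Co 3 2 5 G Ω ∨ Co 2 2 3 G Ω := by
  have h2 : 2 ≤ Nat.card Ω := by
    haveI : Nontrivial Ω := by
      by_contra hn
      haveI := not_nontrivial_iff_subsingleton.1 hn
      exact hx.1 (eq_top_iff.2 fun g _ => Subsingleton.elim _ _)
    exact Finite.one_lt_card
  by_cases h3 : Nat.card Ω ≤ 3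
  · exact Or.inr (co_of_tr (pp2 G Ω hs h3) (by omega))
  left
  by_cases h7 : Nat.card Ω ≤ 7
  · exact co_of_tr (pp3 G Ω hs h7) (by omega)
  by_cases h11 : Nat.card Ω = 11
  · exact co_of_tr ((prime_degree hs x0 hx (by rw [h11]; norm_num)).1.mono le_rfl (by norm_num))
      (by omega)
  obtain ⟨B, hB, hb⟩ := exists_base hs x0 hx
  have hg := fun n h4 h7 hn => good hs hB hb (n := n) h4 h7 hn
  by_cases h10 : Nat.card Ω ≤ 10
  · refine co_sizes ![4, 5, 6, 7, Nat.card Ω - 7] ?_ fun c => ?_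
    · intro a b e
      fin_cases a <;> fin_cases b <;> simp at e ⊢ <;> omega
    · fin_cases c
      · exact hg 4 le_rfl (by norm_num) (by omega)
      · exact hg 5 (by norm_num) (by norm_num) (by omega)
      · exact hg 6 (by norm_num) (by norm_num) (by omega)
      · exact hg 7 (by norm_num) (by norm_num) (by omega)
      · exact good_compl (hg 7 (by norm_num) (by norm_num) (by omega))
  · refine co_sizes ![4, 5, 6, 7, Nat.card Ω - 4] ?_ fun c => ?_
    · intro a b e
      fin_cases a <;> fin_cases b <;> simp at e ⊢ <;> omega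
    · fin_cases c
      · exact hg 4 le_rfl (by norm_num) (by omega)
      · exact hg 5 (by norm_num) (by norm_num) (by omega)
      · exact hg 6 (by norm_num) (by norm_num) (by omega)
      · exact hg 7 (by norm_num) (by norm_num) (by omega)
      · exact good_compl (hg 4 le_rfl (by norm_num) (by omega))

end H90.VS
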