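import Mathlib
import Cfsg.Agent.Base
import Cfsg.Agent.Lib.VSt.PI

/-! Three-colourings of a solvable primitive permutation group with abelian stabilisers. -/

set_option autoImplicit false
set_option linter.unusedSectionVars false

universe u

namespace H90.VS

open Subgroup MulAction H83.Base
open scoped commutatorElement

namespace CO3

variable (G : Type u) {Ω : Type u} [Group G] [Finite G] [Finite Ω] [MulAction G Ω]

/-- two disjoint sets of given sizes whose joint stabiliser acts as an abelian group -/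
def T (Ω : Type u) [MulAction G Ω] (a b : ℕ) : Prop :=
  ∃ A B : Set Ω, Disjoint A B ∧ A.ncard = a ∧ B.ncard = b ∧ ∀ H : Subgroup G,
    (∀ g ∈ H, ∀ x ∈ A, g • x ∈ A) → (∀ g ∈ H, ∀ x ∈ B, g • x ∈ B) → Tr H 1 Ω

variable {G} {a b : ℕ}

theorem inv_compl {H : Subgroup G} {A : Set Ω} (h : ∀ g ∈ H, ∀ x ∈ A, g • x ∈ A) :
    ∀ g ∈ H, ∀ x ∈ Aᶜ, g • x ∈ Aᶜ := fun g hg x hx e =>
  hx (by simpa using h g⁻¹ (inv_mem hg) _ e)

theorem inv_union {H : Subgroup G} {A B : Set Ω} (h : ∀ g ∈ H, ∀ x ∈ A, g • x ∈ A)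
    (k : ∀ g ∈ H, ∀ x ∈ B, g • x ∈ B) : ∀ g ∈ H, ∀ x ∈ A ∪ B, g • x ∈ A ∪ B :=
  fun g hg x hx => hx.imp (h g hg x) (k g hg x)

theorem T.swap (h : T G Ω a b) : T G Ω b a := by
  obtain ⟨A, B, d, h1, h2, h3⟩ := h
  exact ⟨B, A, d.symm, h2, h1, fun H k1 k2 => h3 H k2 k1⟩

theorem T.rest (h : T G Ω a b) : T G Ω a (Nat.card Ω - (a + b)) := by
  obtain ⟨A, B, d, h1, h2, h3⟩ := h
  refine ⟨A, (A ∪ B)ᶜ, disjoint_compl_right.mono_left Set.subset_union_left, h1, ?_,
    fun H k1 k2 => h3 H k1 fun g hg x hx => ?_⟩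
  · rw [Set.ncard_compl, Set.ncard_union_eq d, h1, h2]
  · have k3 := inv_compl k2 g hg x (by simp [hx])
    rw [compl_compl] at k3
    exact k3.resolve_left (inv_compl k1 g hg x (Set.disjoint_right.1 d hx))

theorem co_of (s : Fin 5 → ℕ × ℕ) (hi : Function.Injective s) (h : ∀ c, T G Ω (s c).1 (s c).2) :
    Co 1 3 5 G Ω := by
  classical
  choose A B d h1 h2 h3 using h
  have e0 : ∀ c x, (if x ∈ A c then (0 : Fin 3) else if x ∈ B c then 1 else 2) = 0 ↔ x ∈ A c :=
    fun c x => by split_ifs <;> simp [*]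
  have e1 : ∀ c x, (if x ∈ A c then (0 : Fin 3) else if x ∈ B c then 1 else 2) = 1 ↔ x ∈ B c :=
    fun c x => by
      split_ifs with k1 k2
      · simp [Set.disjoint_left.1 (d c) k1]
      all_goals simp [*]
  have nc : ∀ (g : G) (X Y : Set Ω), (∀ x, g • x ∈ Y ↔ x ∈ X) → X.ncard = Y.ncard := fun g X Y k => by
    rw [← Set.ncard_image_of_injective X (MulAction.injective g)]
    congr 1
    ext y
    exact ⟨by rintro ⟨x, hx, rfl⟩; exact (k x).2 hx,
      fun hy => ⟨g⁻¹ • y, (k _).1 (by simpa using hy), by simp⟩⟩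
  refine ⟨fun c x => if x ∈ A c then 0 else if x ∈ B c then 1 else 2, fun g c c' k => hi ?_,
    fun c H k => h3 c H (fun g hg x hx => ?_) fun g hg x hx => ?_⟩
  · refine Prod.ext ?_ ?_
    · rw [← h1, ← h1]; exact nc g _ _ fun x => by rw [← e0, ← e0 c]; exact (k x).congr_left
    · rw [← h2, ← h2]; exact nc g _ _ fun x => by rw [← e1, ← e1 c]; exact (k x).congr_left
  · exact (e0 c _).1 ((k g hg x).trans ((e0 c x).2 hx))
  · exact (e1 c _).1 ((k g hg x).trans ((e1 c x).2 hx))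

theorem split {C : Set Ω} (h : C.ncard ≤ a + b) (hm : a + b ≤ Nat.card Ω) :
    ∃ A B : Set Ω, Disjoint A B ∧ A.ncard = a ∧ B.ncard = b ∧ C ⊆ A ∪ B := by
  obtain ⟨D, h1, -, h2⟩ := Set.exists_subsuperset_card_eq (Set.subset_univ C) h
    (by rwa [Set.ncard_univ])
  obtain ⟨A, h3, h4⟩ := Set.exists_subset_card_eq (s := D) (n := a) (by omega)
  refine ⟨A, D \ A, Set.disjoint_sdiff_right, h4, ?_, by rwa [Set.union_sdiff_cancel h3]⟩
  rw [Set.ncard_sdiff h3, h2, h4, Nat.add_sub_cancel_left]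

theorem T.of_base (hs : Group.IsSolvable G) {C : Set Ω}
    (hC : ∀ g : G, (∀ x ∈ C, g • x = x) → ∀ x : Ω, g • x = x) (ha : a ≤ 2) (hb : b ≤ 2)
    (h : C.ncard ≤ a + b) (hm : a + b ≤ Nat.card Ω) : T G Ω a b := by
  obtain ⟨A, B, d, h1, h2, h3⟩ := split h hm
  exact ⟨A, B, d, h1, h2, fun H k1 k2 g hg => hC g fun x hx => (h3 hx).elim
    (pp1.set hs H A k1 (by omega) g hg x) (pp1.set hs H B k2 (by omega) g hg x)⟩

theorem T.small (hs : Group.IsSolvable G) (ha : a ≤ 2) (hb : b ≤ 2) (h : Nat.card Ω ≤ a + b + 2)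
    (hm : a + b ≤ Nat.card Ω) : T G Ω a b := by
  obtain ⟨A, B, d, h1, h2, -⟩ := split (C := (∅ : Set Ω)) (by simp) hm
  refine ⟨A, B, d, h1, h2, fun H k1 k2 g hg x => ?_⟩
  by_cases hx : x ∈ A ∪ B
  · exact hx.elim (pp1.set hs H A k1 (by omega) g hg x) (pp1.set hs H B k2 (by omega) g hg x)
  · exact pp1.set hs H _ (inv_compl (inv_union k1 k2))
      (by rw [Set.ncard_compl, Set.ncard_union_eq d]; omega) g hg x hx

theorem co_base (hs : Group.IsSolvable G) {C : Set Ω}
    (hC : ∀ g : G, (∀ x ∈ C, g • x = x) → ∀ x : Ω, g • x = x) (h : C.ncard ≤ 3)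
    (hm : 6 ≤ Nat.card Ω) : Co 1 3 5 G Ω := by
  have t : T G Ω 2 1 := T.of_base hs hC le_rfl (by omega) h (by omega)
  refine co_of ![(2, 1), (1, 2), (2, Nat.card Ω - 3), (Nat.card Ω - 3, 2), (1, Nat.card Ω - 3)]
    (fun i j e => ?_) fun c => ?_
  · fin_cases i <;> fin_cases j <;> simp at e ⊢ <;> omega
  · fin_cases c
    exacts [t, t.swap, t.rest, t.rest.swap, t.swap.rest]

variable {W : Type u} [AddCommGroup W] [DistribMulAction G W] {E : W ≃ Ω}

theorem lin (hE : ∀ (g : G) (w : W), g • E w = E (E.symm (g • E 0) + g • w)) {g : G}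
    (h0 : g • E 0 = E 0) (w : W) : g • E w = E (g • w) := by
  rw [hE, h0, E.symm_apply_apply, zero_add]

theorem triv (hE : ∀ (g : G) (w : W), g • E w = E (E.symm (g • E 0) + g • w)) {g : G}
    (h0 : g • E 0 = E 0) (h : ∀ w : W, g • w = w) (x : Ω) : g • x = x := by
  rw [← E.apply_symm_apply x, lin hE h0, h]

theorem t23 (hs : Group.IsSolvable G)
    (hE : ∀ (g : G) (w : W), g • E w = E (E.symm (g • E 0) + g • w)) {u v w : W}
    (hb : ∀ g : G, g • u = u → g • v = v → g • w = w → ∀ x : W, g • x = x)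
    (hu : u ≠ 0) (hv : ∃ g : G, g • u = u ∧ g • v ≠ v)
    (hw : ∃ g : G, g • u = u ∧ g • v = v ∧ g • w ≠ w) : T G Ω 2 3 := by
  obtain ⟨gv, v1, v2⟩ := hv
  obtain ⟨gw, w1, w2, w3⟩ := hw
  have nw : ∀ i j : ℤ, w ≠ i • u + j • v := fun i j e => w3 (by
    rw [e, smul_add, smul_comm gw, smul_comm gw, w1, w2])
  have nv : ∀ i : ℤ, v ≠ i • u := fun i e => v2 (by rw [e, smul_comm gv, v1])
  have n1 : v ≠ w := fun e => nw 0 1 (by simp [e])
  have n2 : v ≠ u + v := fun e => hu (by simpa using e)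
  have n3 : w ≠ u + v := fun e => nw 1 1 (by simp [e])
  refine ⟨E '' {0, u}, E '' {v, w, u + v}, ?_, ?_, ?_, fun H k1 k2 => ?_⟩
  · refine (Set.disjoint_image_iff E.injective).2 (Set.disjoint_left.2 ?_)
    rintro x (rfl | rfl) (e | e | e)
    exacts [nv 0 (by simp [← e]), nw 0 0 (by simp [← e]),
      nv (-1) (by rw [neg_smul, one_smul]; exact eq_neg_of_add_eq_zero_right e.symm),
      nv 1 (by simp [← e]), nw 1 0 (by simp [← e]), nv 0 (by simpa using e)]
  · rw [Set.ncard_image_of_injective _ E.injective, Set.ncard_pair hu.symm]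
  · rw [Set.ncard_image_of_injective _ E.injective]
    exact Set.ncard_eq_three.2 ⟨_, _, _, n1, n2, n3, rfl⟩
  have fw : ∀ g ∈ H, g • E w = E w := fun g hg => by
    have m : ∀ {S : Set W} {x : W}, g • E x ∈ E '' S → E.symm (g • E 0) + g • x ∈ S := fun h => by
      rwa [hE, E.injective.mem_set_image] at h
    have a0 := m (k1 g hg _ ⟨0, .inl rfl, rfl⟩)
    have a1 := m (k1 g hg _ ⟨u, .inr rfl, rfl⟩)
    have b0 := m (k2 g hg _ ⟨v, .inl rfl, rfl⟩)
    have b1 := m (k2 g hg _ ⟨w, .inr (.inl rfl), rfl⟩)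
    have b2 := m (k2 g hg _ ⟨u + v, .inr (.inr rfl), rfl⟩)
    rw [hE]
    generalize E.symm (g • E 0) = t at a0 a1 b0 b1 b2
    have inj : ∀ x y : W, t + g • x = t + g • y → x = y := fun x y e =>
      MulAction.injective g (add_left_cancel e)
    obtain ⟨i, hi⟩ : ∃ i : ℤ, g • u = i • u := by
      rw [smul_zero, add_zero] at a0
      rcases a0 with rfl | rfl <;> rcases a1 with e | e
      · exact ⟨0, by simpa using e⟩
      · exact ⟨1, by simpa using e⟩
      · exact ⟨-1, by rw [neg_smul, one_smul]; exact eq_neg_of_add_eq_zero_right e⟩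
      · exact ⟨0, by simpa using e⟩
    have df : t + g • (u + v) = t + g • v + i • u := by rw [smul_add, hi]; abel
    have c0 : t + g • v ≠ w := fun e => by
      rw [df, e] at b2
      rcases b2 with k | k | k
      · exact nw (-i) 1 (by rw [one_smul, ← k, neg_smul]; abel)
      · exact n2 (inj _ _ (by rw [df, e]; exact k.symm))
      · exact nw (1 - i) 1 (by rw [one_smul, sub_smul, one_smul, eq_sub_of_add_eq k]; abel)
    have c2 : t + g • (u + v) ≠ w := fun e => by
      rw [df] at e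
      rcases b0 with k | k | k
      · exact nw i 1 (by rw [one_smul, ← e, k]; abel)
      · exact c0 k
      · exact nw (1 + i) 1 (by rw [one_smul, add_smul, one_smul, ← e, k]; abel)
    have d0 := b0.imp_right fun k => k.resolve_left c0
    have d2 := b2.imp_right fun k => k.resolve_left c2
    rcases b1 with k | k | k
    · rcases d0 with l | l
      · exact (n1 (inj _ _ (l.trans k.symm))).elim
      · exact (d2.elim (fun m => n3 (inj _ _ (k.trans m.symm))) fun m => n2 (inj _ _ (l.trans m.symm))).elim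
    · exact congrArg E k
    · rcases d0 with l | l
      · exact (d2.elim (fun m => n2 (inj _ _ (l.trans m.symm))) fun m => n3 (inj _ _ (k.trans m.symm))).elim
      · exact (n1 (inj _ _ (l.trans k.symm))).elim
  intro g hg
  have p1 := pp1.set hs H _ k1 ((Set.ncard_image_le (Set.toFinite _)).trans (Set.ncard_pair hu.symm).le) g hg
  have p2 := pp1.set hs H (E '' {v, w, u + v} \ {E w}) (fun g hg x hx => ⟨k2 g hg x hx.1, fun e =>
    hx.2 (MulAction.injective g ((Set.mem_singleton_iff.1 e).trans (fw g hg).symm))⟩) (by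
      rw [Set.ncard_sdiff_singleton_of_mem (Set.mem_image_of_mem _ (by simp)),
        Set.ncard_image_of_injective _ E.injective, Set.ncard_eq_three.2 ⟨_, _, _, n1, n2, n3, rfl⟩])
    g hg (E v) ⟨⟨v, .inl rfl, rfl⟩, fun e => n1 (E.injective e)⟩
  have h0 := p1 _ ⟨0, .inl rfl, rfl⟩
  exact triv hE h0 (hb g (E.injective ((lin hE h0 u).symm.trans (p1 _ ⟨u, .inr rfl, rfl⟩)))
    (E.injective ((lin hE h0 v).symm.trans p2))
    (E.injective ((lin hE h0 w).symm.trans (fw g (ds_le H 1 hg)))))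

theorem eqns_T : True := by
  have := @T.eq_1.{0}
  trivial

end CO3

open CO3 in
theorem co_three {G Ω : Type u} [Group G] [Finite G] [Finite Ω] [MulAction G Ω]
    [IsPretransitive G Ω] (hs : Group.IsSolvable G) (x0 : Ω)
    (hx : IsCoatom (stabilizer G x0)) : Co 1 3 5 G Ω := by
  obtain ⟨W, _, _, E, hi, hE⟩ := exists_affine hs x0 hx
  haveI : Finite W := Finite.of_equiv _ E.symm
  haveI := hi.1
  haveI : Nontrivial Ω := E.injective.nontrivial
  have hm : 1 < Nat.card Ω := Finite.one_lt_card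
  have pr : (Nat.card Ω).Prime → ∃ C : Set Ω, C.ncard = 2 ∧
      ∀ g : G, (∀ x ∈ C, g • x = x) → ∀ x : Ω, g • x = x := fun hp => by
    obtain ⟨x, y, hxy⟩ := exists_pair_ne Ω
    exact ⟨{x, y}, Set.ncard_pair hxy, fun g h =>
      (prime_degree hs x0 hx hp).2 x y hxy g (h x (.inl rfl)) (h y (.inr rfl))⟩
  have sm : ∀ a b : ℕ, a ≤ 2 → b ≤ 2 → Nat.card Ω ≤ a + b + 2 → a + b ≤ Nat.card Ω → T G Ω a b :=
    fun a b => T.small hs
  rcases (by omega : Nat.card Ω = 2 ∨ Nat.card Ω = 3 ∨ Nat.card Ω = 4 ∨ Nat.card Ω = 5 ∨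
    Nat.card Ω = 6 ∨ Nat.card Ω = 7 ∨ 8 ≤ Nat.card Ω) with e | e | e | e | e | e | e
  · exact co_of ![(2, 0), (0, 2), (0, 0), (1, 1), (1, 0)] (by decide) fun c => by
      fin_cases c <;> exact sm _ _ (by simp) (by simp) (by simp [e]) (by simp [e])
  · exact co_of ![(1, 1), (2, 1), (1, 2), (2, 0), (0, 2)] (by decide) fun c => by
      fin_cases c <;> exact sm _ _ (by simp) (by simp) (by simp [e]) (by simp [e])
  · exact co_of ![(2, 2), (2, 1), (1, 2), (2, 0), (0, 2)] (by decide) fun c => by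
      fin_cases c <;> exact sm _ _ (by simp) (by simp) (by simp [e]) (by simp [e])
  · obtain ⟨C, h1, h2⟩ := pr (by rw [e]; norm_num)
    have t : T G Ω 1 1 := T.of_base hs h2 (by omega) (by omega) h1.le (by omega)
    have t' := t.rest
    rw [e] at t'
    refine co_of ![(2, 2), (2, 1), (1, 2), (1, 1), (1, 3)] (by decide) fun c => ?_
    fin_cases c
    exacts [sm 2 2 le_rfl le_rfl (by omega) (by omega), sm 2 1 le_rfl (by omega) (by omega) (by omega),
      sm 1 2 (by omega) le_rfl (by omega) (by omega), t, t']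
  · obtain ⟨p, k, hp, -, h⟩ := exists_prime hi
    rw [Nat.card_congr E, e] at h
    have h2 := (Nat.prime_dvd_prime_iff_eq Nat.prime_two hp).1
      (Nat.prime_two.dvd_of_dvd_pow (h ▸ (by norm_num : 2 ∣ 6)))
    have h3 := (Nat.prime_dvd_prime_iff_eq Nat.prime_three hp).1
      (Nat.prime_three.dvd_of_dvd_pow (h ▸ (by norm_num : 3 ∣ 6)))
    omega
  · obtain ⟨C, h1, h2⟩ := pr (by rw [e]; norm_num)
    exact co_base hs h2 (by omega) (by omega)
  obtain ⟨w, hw⟩ := ModP.base modP_three hs (Nat.coprime_one_right _) (fun v => zero_smul _ v) hi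
  have hb : ∀ g : G, g • w 0 = w 0 → g • w 1 = w 1 → g • w 2 = w 2 → ∀ x : W, g • x = x :=
    fun g h0 h1 h2 => hw g fun j => by fin_cases j <;> assumption
  by_cases c : ∃ u v : W, ∀ g : G, g • u = u → g • v = v → ∀ x : W, g • x = x
  · obtain ⟨u, v, h⟩ := c
    refine co_base hs (C := {E 0, E u, E v}) (fun g k => ?_) ?_ (by omega)
    · have h0 := k _ (.inl rfl)
      exact triv hE h0 (h g (E.injective ((lin hE h0 u).symm.trans (k _ (.inr (.inl rfl)))))
        (E.injective ((lin hE h0 v).symm.trans (k _ (.inr (.inr rfl))))))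
    · exact (Set.ncard_insert_le _ _).trans (Nat.succ_le_succ ((Set.ncard_insert_le _ _).trans (by simp)))
  push Not at c
  have t : T G Ω 2 2 := T.of_base hs (C := {E 0, E (w 0), E (w 1), E (w 2)}) (fun g k => by
    have h0 := k _ (.inl rfl)
    exact triv hE h0 (hb g (E.injective ((lin hE h0 _).symm.trans (k _ (.inr (.inl rfl)))))
      (E.injective ((lin hE h0 _).symm.trans (k _ (.inr (.inr (.inl rfl))))))
      (E.injective ((lin hE h0 _).symm.trans (k _ (.inr (.inr (.inr rfl)))))))) le_rfl le_rfl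
    ((Set.ncard_insert_le _ _).trans (Nat.succ_le_succ ((Set.ncard_insert_le _ _).trans
      (Nat.succ_le_succ ((Set.ncard_insert_le _ _).trans (by simp)))))) (by omega)
  have t' : T G Ω 2 3 := by
    obtain ⟨g0, a1, a2, x, a3⟩ := c (w 1) (w 2)
    obtain ⟨g1, b1, b2, y, b3⟩ := c (w 0) (w 2)
    obtain ⟨g2, c1, c2, z, c3⟩ := c (w 0) (w 1)
    exact t23 hs hE hb (fun k => a3 (hb g0 (by rw [k, smul_zero]) a1 a2 x))
      ⟨g1, b1, fun k => b3 (hb g1 b1 k b2 y)⟩ ⟨g2, c1, c2, fun k => c3 (hb g2 c1 c2 k z)⟩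
  refine co_of ![(2, 2), (2, Nat.card Ω - 4), (Nat.card Ω - 4, 2), (2, 3), (3, 2)]
    (fun i j k => ?_) fun c => ?_
  · fin_cases i <;> fin_cases j <;> simp at k ⊢ <;> omega
  · fin_cases c
    exacts [t, t.rest, t.rest.swap, t', t'.swap]

end H90.VS
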