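import Mathlib
import Cfsg.Agent.Base
import Cfsg.Agent.Lib.VSt.Defs

set_option autoImplicit false
set_option linter.unusedSectionVars false

universe u

namespace H90.VS

open Subgroup MulAction H83.Base
open scoped commutatorElement

variable {G V : Type u} [Group G] [Finite G] [AddCommGroup V] [Finite V] [DistribMulAction G V]

/-- induction over the invariant subgroups of a completely reducible module -/
theorem CR.induct
    (hcr : ∀ U : AddSubgroup V, Invt G U →
      ∃ U' : AddSubgroup V, Invt G U' ∧ U ⊓ U' = ⊥ ∧ U ⊔ U' = ⊤)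
    (P : AddSubgroup V → Prop) (hbot : P ⊥)
    (hsum : ∀ U U1 U2 : AddSubgroup V, Invt G U1 → Invt G U2 → U1 ≤ U → U2 ≤ U → U1 ⊓ U2 = ⊥ →
      (∀ x ∈ U, ∃ y ∈ U1, ∃ z ∈ U2, y + z = x) → P U1 → P U2 → P U)
    (hirr : ∀ (U : AddSubgroup V) (hU : Invt G U), @Irr G U _ _ (subAct G U hU) → P U) :
    P ⊤ := by
  suffices ∀ n, ∀ U : AddSubgroup V, Nat.card U = n → Invt G U → P U from
    this _ ⊤ rfl fun _ _ _ => trivial
  intro n
  induction n using Nat.strong_induction_on with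
  | _ n ih =>
  intro U hn hU
  by_cases h0 : U = ⊥
  · rw [h0]; exact hbot
  by_cases h1 : ∃ U1 : AddSubgroup V, Invt G U1 ∧ U1 < U ∧ U1 ≠ ⊥
  · obtain ⟨U1, i1, l1, n1⟩ := h1
    obtain ⟨W, iW, hW1, hW2⟩ := hcr U1 i1
    have l2 : W ⊓ U < U := lt_of_le_of_ne inf_le_right fun e => n1 <| by
      have : U ≤ W := inf_eq_right.1 e
      rw [← hW1, inf_eq_left.2 (l1.le.trans this)]
    have lt : ∀ X : AddSubgroup V, X < U → Nat.card X < n := fun X hX => by
      rw [← hn]
      refine lt_of_le_of_ne (AddSubgroup.card_le_of_le hX.le) fun e =>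
        hX.ne (AddSubgroup.eq_of_le_of_card_ge hX.le e.ge)
    have i2 : Invt G (W ⊓ U) := fun g v hv => ⟨iW g v hv.1, hU g v hv.2⟩
    refine hsum U U1 (W ⊓ U) i1 i2 l1.le inf_le_right ?_ ?_ (ih _ (lt _ l1) U1 rfl i1)
      (ih _ (lt _ l2) (W ⊓ U) rfl i2)
    · rw [← inf_assoc, hW1, bot_inf_eq]
    · intro x hx
      obtain ⟨y, hy, z, hz, rfl⟩ := AddSubgroup.mem_sup.1 (hW2 ▸ AddSubgroup.mem_top x)
      exact ⟨y, hy, z, ⟨hz, (add_mem_cancel_left (l1.le hy)).1 hx⟩, rfl⟩
  · push Not at h1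
    letI := subAct G U hU
    refine hirr U hU ⟨(AddSubgroup.nontrivial_iff_ne_bot U).2 h0, fun W hW => ?_⟩
    rcases (AddSubgroup.map_subtype_le W).lt_or_eq with hlt | heq
    · left
      have := h1 _ (by rintro g _ ⟨w, hw, rfl⟩; exact ⟨g • w, hW g w hw, rfl⟩) hlt
      exact (AddSubgroup.map_eq_bot_iff_of_injective _ U.subtype_injective).1 this
    · right
      rw [eq_top_iff]
      intro w _
      obtain ⟨w', h1, h2⟩ : w.1 ∈ W.map U.subtype := heq.symm ▸ w.2
      rwa [← Subtype.ext h2]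

theorem LP.cr {N j : ℕ} (h : LP.{u} N j) (hs : Group.IsSolvable G)
    (hcr : ∀ U : AddSubgroup V, Invt G U →
      ∃ U' : AddSubgroup V, Invt G U' ∧ U ⊓ U' = ⊥ ∧ U ⊔ U' = ⊤)
    (hN : Nat.card V ≤ N) : Tr (⊤ : Subgroup G) j V := by
  have key := CR.induct hcr (fun U => ∀ g ∈ ds (⊤ : Subgroup G) j, ∀ x ∈ U, g • x = x) ?_ ?_ ?_
  · exact fun g hg x => key g hg x trivial
  · intro g _ x hx
    rw [AddSubgroup.mem_bot.1 hx, smul_zero]
  · intro U U1 U2 _ _ _ _ _ hd h1 h2 g hg x hx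
    obtain ⟨y, hy, z, hz, rfl⟩ := hd x hx
    rw [smul_add, h1 g hg y hy, h2 g hg z hz]
  · intro U hU hi g hg x hx
    letI := subAct G U hU
    exact congrArg Subtype.val
      (h G U hs hi ((Finite.card_subtype_le _).trans hN) g hg ⟨x, hx⟩)

theorem mo_of_cr {j : ℕ}
    (hcr : ∀ U : AddSubgroup V, Invt G U →
      ∃ U' : AddSubgroup V, Invt G U' ∧ U ⊓ U' = ⊥ ∧ U ⊔ U' = ⊤)
    (h : ∀ (U : AddSubgroup V) (hU : Invt G U), @Irr G U _ _ (subAct G U hU) →
      @Mo j 1 G U _ (subAct G U hU).toMulAction) : Mo j 1 G V := by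
  have key := CR.induct hcr
    (fun U => ∃ v ∈ U, ∀ g ∈ ds (stabilizer G v) j, ∀ x ∈ U, g • x = x) ?_ ?_ ?_
  · obtain ⟨v, -, hv⟩ := key
    exact ⟨fun _ => v, fun _ _ _ _ => Subsingleton.elim _ _, fun _ g hg x => hv g hg x trivial⟩
  · refine ⟨0, zero_mem _, fun g _ x hx => ?_⟩
    rw [AddSubgroup.mem_bot.1 hx, smul_zero]
  · rintro U U1 U2 i1 i2 l1 l2 hb hd ⟨v1, m1, b1⟩ ⟨v2, m2, b2⟩
    have e1 : stabilizer G (v1 + v2) ≤ stabilizer G v1 := fun g hg => by
      have : g • (v1 + v2) = v1 + v2 := hg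
      rw [smul_add] at this
      have h3 : g • v1 - v1 ∈ U1 ⊓ U2 := AddSubgroup.mem_inf.2
        ⟨U1.sub_mem (i1 g _ m1) m1, by
        rw [show g • v1 - v1 = v2 - g • v2 by rw [sub_eq_sub_iff_add_eq_add, this, add_comm]]
        exact U2.sub_mem m2 (i2 g _ m2)⟩
      rwa [hb, AddSubgroup.mem_bot, sub_eq_zero] at h3
    have e2 : stabilizer G (v1 + v2) ≤ stabilizer G v2 := fun g hg => by
      have : g • (v1 + v2) = v1 + v2 := hg
      have h4 : g • v1 = v1 := e1 hg
      rwa [smul_add, h4, add_right_inj] at this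
    refine ⟨v1 + v2, add_mem (l1 m1) (l2 m2), fun g hg x hx => ?_⟩
    obtain ⟨y, hy, z, hz, rfl⟩ := hd x hx
    rw [smul_add, b1 g (ds_mono e1 j hg) y hy, b2 g (ds_mono e2 j hg) z hz]
  · intro U hU hi
    letI := subAct G U hU
    obtain ⟨v, -, hv⟩ := h U hU hi
    refine ⟨(v 0).1, (v 0).2, fun g hg x hx => ?_⟩
    have e : stabilizer G (v 0).1 ≤ stabilizer G (v 0) := fun a ha => Subtype.ext ha
    exact congrArg Subtype.val (hv 0 g (ds_mono e j hg) ⟨x, hx⟩)

/-- points of `X` in different orbits -/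
theorem CR.exists_points (X : Set V) (s : ℕ) (h : ∀ t, t < s → t * Nat.card G < X.ncard) :
    ∃ u : Fin s → V, (∀ c, u c ∈ X) ∧ ∀ (g : G) c c', g • u c = u c' → c = c' := by
  induction s with
  | zero => exact ⟨Fin.elim0, fun c => c.elim0, fun _ c => c.elim0⟩
  | succ s ih =>
    obtain ⟨u, hu, hd⟩ := ih fun t ht => h t (ht.trans (Nat.lt_succ_self s))
    have h1 : (Set.range fun p : Fin s × G => p.2 • u p.1).ncard ≤ s * Nat.card G := by
      rw [← Set.image_univ]
      refine (Set.ncard_image_le (Set.toFinite _)).trans ?_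
      rw [Set.ncard_univ, Nat.card_prod, Nat.card_eq_fintype_card (α := Fin s), Fintype.card_fin]
    obtain ⟨x, hx, hn⟩ := Set.exists_mem_notMem_of_ncard_lt_ncard
      (h1.trans_lt (h s (Nat.lt_succ_self s))) (Set.toFinite _)
    refine ⟨Fin.cons x u, fun c => Fin.cases hx hu c, fun g c c' => ?_⟩
    refine Fin.cases ?_ (fun c => ?_) c <;> refine Fin.cases ?_ (fun c' => ?_) c'
    · exact fun _ => rfl
    · intro e
      simp only [Fin.cons_zero, Fin.cons_succ] at e
      exact (hn ⟨(c', g⁻¹), inv_smul_eq_iff.2 e.symm⟩).elim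
    · intro e
      simp only [Fin.cons_zero, Fin.cons_succ] at e
      exact (hn ⟨(c, g), e⟩).elim
    · intro e
      simp only [Fin.cons_succ] at e
      rw [hd g c c' e]

theorem mo_of_card {j t : ℕ} (X : Set V) (hX : ∀ v ∈ X, Tr (stabilizer G v) j V)
    (h : t * Nat.card G < X.ncard) : Mo j (t + 1) G V := by
  obtain ⟨u, hu, hd⟩ := CR.exists_points (G := G) X (t + 1) fun s hs =>
    (Nat.mul_le_mul_right _ (Nat.lt_succ_iff.1 hs)).trans_lt h
  exact ⟨u, hd, fun c => hX _ (hu c)⟩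

theorem mo_two [Nontrivial V] {j : ℕ} (ho : Odd (Nat.card G)) (hV : Odd (Nat.card V))
    (h : Mo j 1 G V) : Mo j 2 G V := by
  obtain ⟨u, -, hu⟩ := h
  have hv := hu 0
  generalize u 0 = v at hv
  have two : ∀ a b : V, (∀ g : G, g • a ≠ b) → Tr (stabilizer G a) j V →
      Tr (stabilizer G b) j V → Mo j 2 G V := by
    intro a b hab ha hb
    refine ⟨![a, b], fun g c c' e => ?_, fun c => ?_⟩
    · fin_cases c <;> fin_cases c'
      · rfl
      · exact (hab g e).elim
      · have e' : g • b = a := e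
        exact (hab g⁻¹ (by rw [← e']; exact inv_smul_smul g b)).elim
      · rfl
    · fin_cases c
      · exact ha
      · exact hb
  by_cases h0 : v = 0
  · subst h0
    obtain ⟨w, hw⟩ := exists_ne (0 : V)
    refine two 0 w (fun g e => hw (by rw [← e, smul_zero])) hv (hv.mono (fun g _ => ?_) le_rfl)
    exact smul_zero g
  · refine two v (-v) (fun g e => h0 ?_) hv (hv.mono (fun g hg => ?_) le_rfl)
    · have e2 : g ^ 2 • v = v := by rw [pow_two, mul_smul, e, smul_neg, e, neg_neg]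
      have e3 : g • v = v := fix_of_pow (Nat.coprime_two_right.2 ho) e2
      have e4 : 2 • v = 0 := by rw [two_nsmul]; nth_rewrite 1 [← e3]; rw [e, neg_add_cancel]
      have d1 : addOrderOf v ∣ 2 := addOrderOf_dvd_of_nsmul_eq_zero e4
      have d2 : addOrderOf v ∣ Nat.card V := addOrderOf_dvd_natCard v
      exact AddMonoid.addOrderOf_eq_one_iff.1
        (Nat.eq_one_of_dvd_coprimes (Nat.coprime_two_left.2 hV) d1 d2)
    · have : g • (-v) = -v := hg
      rw [smul_neg, neg_inj] at this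
      exact this

end H90.VS
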