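import Mathlib
import Cfsg.Agent.Base
import Cfsg.Agent.Lib.VSt.Defs

/-! The dichotomy: a field of scalars or a system of imprimitivity. -/

set_option autoImplicit false
set_option linter.unusedSectionVars false
set_option linter.style.haveILetI false

universe u

namespace H90.VS

open Subgroup MulAction H83.Base
open scoped commutatorElement

theorem DI2.imp {G V : Type u} [Group G] [Finite G] [AddCommGroup V] [Finite V]
    [DistribMulAction G V] (hi : Irr G V) (K : Subring (AddMonoid.End V))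
    (hK : ∀ a ∈ K, ∀ b ∈ K, a * b = b * a) (hKg : ∀ g : G, ∀ a ∈ K, cjE g a ∈ K)
    {f0 : AddMonoid.End V} (hf0 : f0 ∈ K) (hf1 : f0 * f0 = f0) (hf2 : f0 ≠ 0) (hf3 : f0 ≠ 1) :
    ∃ (M : Subgroup G) (π : G ⧸ M → V →+ V), IsCoatom M ∧ Sys M π := by
  classical
  haveI : Finite (AddMonoid.End V) :=
    Finite.of_injective (fun f : AddMonoid.End V => (f : V → V)) DFunLike.coe_injective
  let I := {a : AddMonoid.End V // a ∈ K ∧ a * a = a ∧ a ≠ 0 ∧
    ∀ f ∈ K, f * f = f → f * a = 0 ∨ f * a = a}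
  have hinv : ∀ (g : G) (a : AddMonoid.End V), cjE g (cjE g⁻¹ a) = a := fun g a => by
    rw [← cjE_mul, mul_inv_cancel, cjE_one]
  have hinv' : ∀ (g : G) (a : AddMonoid.End V), cjE g⁻¹ (cjE g a) = a := fun g a => by
    rw [← cjE_mul, inv_mul_cancel, cjE_one]
  letI : MulAction G I :=
    { smul := fun g a => ⟨cjE g a.1, hKg g _ a.2.1, by rw [← map_mul, a.2.2.1], fun h =>
        a.2.2.2.1 (by rw [← hinv' g a.1, h, map_zero]), fun f hf hff => by
          rcases a.2.2.2.2 (cjE g⁻¹ f) (hKg _ _ hf) (by rw [← map_mul, hff]) with h | h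
          · left; rw [← hinv g f, ← map_mul, h, map_zero]
          · right; rw [← hinv g f, ← map_mul, h]⟩
      one_smul := fun a => Subtype.ext (cjE_one a.1)
      mul_smul := fun g h a => Subtype.ext (cjE_mul g h a.1) }
  have hsm : ∀ (g : G) (a : I) (v : V), (g • a).1 (g • v) = g • a.1 v := fun g a v =>
    cjE_smul g a.1 v
  have idem : ∀ (a : I) v, a.1 (a.1 v) = a.1 v := fun a v => DFunLike.congr_fun a.2.2.1 v
  have orth : ∀ a b : I, a ≠ b → ∀ v, a.1 (b.1 v) = 0 := by
    intro a b hab v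
    rcases b.2.2.2.2 a.1 a.2.1 a.2.2.1 with h | h
    · exact DFunLike.congr_fun h v
    rcases a.2.2.2.2 b.1 b.2.1 b.2.2.1 with h' | h'
    · rw [hK _ b.2.1 _ a.2.1] at h'; exact DFunLike.congr_fun h' v
    · exact absurd (Subtype.ext (by rw [← h', hK _ b.2.1 _ a.2.1, h])) hab
  have nz : ∀ a : I, ∃ v, a.1 v ≠ 0 := fun a => by
    by_contra! h
    exact a.2.2.2.1 (DFunLike.ext _ _ h)
  obtain ⟨a0⟩ : Nonempty I := by
    obtain ⟨a, ⟨h1, h2, h3⟩, hm⟩ := exists_min_nat
      {a : AddMonoid.End V | a ∈ K ∧ a * a = a ∧ a ≠ 0} (fun a => {v | a v = v}.ncard)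
      ⟨f0, hf0, hf1, hf2⟩
    refine ⟨⟨a, h1, h2, h3, fun f hf hff => ?_⟩⟩
    by_cases h0 : f * a = 0
    · exact Or.inl h0
    right
    have e1 : a * (f * a) = f * a := by rw [← mul_assoc, hK a h1 f hf, mul_assoc, h2]
    have h4 := hm (f * a) ⟨mul_mem hf h1, by rw [mul_assoc, e1, ← mul_assoc, hff], h0⟩
    have h5 : {v | (f * a) v = v} = {v | a v = v} := Set.eq_of_subset_of_ncard_le (fun v hv => by
      have hv' : (f * a) v = v := hv
      change a v = v
      rw [← hv']; exact DFunLike.congr_fun e1 v) h4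
    ext v
    have : a v ∈ {v | (f * a) v = v} := by rw [h5]; exact DFunLike.congr_fun h2 v
    have h6 : (f * a) (a v) = a v := this
    rw [← h6]
    exact (DFunLike.congr_fun (show f * a * a = f * a by rw [mul_assoc, h2]) v).symm
  letI : Fintype I := Fintype.ofFinite I
  have hsumT : ∀ T : Finset I, a0 ∈ T → (∀ (g : G) a, g • a ∈ T ↔ a ∈ T) → ∀ v, ∑ a ∈ T, a.1 v = v := by
    intro T h0 hT
    let U : AddSubgroup V :=
      { carrier := {v | ∑ a ∈ T, a.1 v = v}
        add_mem' := fun {v w} hv hw => by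
          simp only [Set.mem_ofPred_eq, map_add, Finset.sum_add_distrib] at *
          rw [hv, hw]
        zero_mem' := by simp
        neg_mem' := fun {v} hv => by
          simp only [Set.mem_ofPred_eq, map_neg, Finset.sum_neg_distrib] at *
          rw [hv] }
    have hU : Invt G U := fun g v hv => by
      change ∑ a ∈ T, a.1 (g • v) = g • v
      have hv' : ∑ a ∈ T, a.1 v = v := hv
      rw [← Finset.sum_equiv (MulAction.toPerm g) (fun a => (hT g a).symm) (fun a _ => (hsm g a v).symm),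
        ← Finset.smul_sum, hv']
    rcases hi.2 U hU with h | h
    · obtain ⟨v, hv⟩ := nz a0
      have : a0.1 v ∈ U := by
        change ∑ a ∈ T, a.1 (a0.1 v) = a0.1 v
        rw [Finset.sum_eq_single a0 (fun b _ hb => orth b a0 hb v) (fun q => absurd h0 q), idem]
      rw [h] at this
      exact absurd (AddSubgroup.mem_bot.1 this) hv
    · intro v
      have : v ∈ U := h ▸ AddSubgroup.mem_top v
      exact this
  have hsum : ∀ v, ∑ a : I, a.1 v = v := hsumT _ (Finset.mem_univ _) (by simp)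
  have htr : ∀ a : I, ∃ g : G, g • a0 = a := fun a => by
    by_contra! hn
    obtain ⟨v, hv⟩ := nz a
    have := hsumT (Finset.univ.filter fun b => ∃ g : G, g • a0 = b) (by simpa using ⟨1, one_smul _ _⟩)
      (fun g b => by
        simp only [Finset.mem_filter, Finset.mem_univ, true_and]
        exact ⟨fun ⟨x, hx⟩ => ⟨g⁻¹ * x, by rw [mul_smul, hx, inv_smul_smul]⟩,
          fun ⟨x, hx⟩ => ⟨g * x, by rw [mul_smul, hx]⟩⟩) (a.1 v)
    rw [Finset.sum_eq_zero fun b hb => orth b a (by
      rintro rfl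
      obtain ⟨g, hg⟩ := (Finset.mem_filter.1 hb).2
      exact hn g hg) v] at this
    exact hv this.symm
  have hne : stabilizer G a0 ≠ ⊤ := fun h => by
    have hsub : ∀ b : I, b = a0 := fun b => by
      obtain ⟨g, rfl⟩ := htr b
      exact (h ▸ mem_top g : g ∈ stabilizer G a0)
    have h3 : a0.1 = 1 := DFunLike.ext _ _ fun v => by
      have := hsum v
      rwa [Finset.sum_eq_single a0 (fun b _ hb => absurd (hsub b) hb) (by simp)] at this
    have := a0.2.2.2.2 f0 hf0 hf1
    rw [h3, mul_one] at this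
    tauto
  obtain ⟨M, hM, hle⟩ := (eq_top_or_exists_le_coatom (stabilizer G a0)).resolve_left hne
  choose s hs using htr
  let β : I → G ⧸ M := fun a => (s a : G ⧸ M)
  have hβ : ∀ (g : G) a, β (g • a) = g • β a := fun g a =>
    QuotientGroup.eq.2 (hle (by
      change ((s (g • a))⁻¹ * (g * s a)) • a0 = a0
      rw [mul_smul, mul_smul, hs, inv_smul_eq_iff, hs]))
  let π : G ⧸ M → AddMonoid.End V := fun c => ∑ a ∈ Finset.univ.filter fun a => β a = c, a.1
  have hπ : ∀ c v, π c v = ∑ a ∈ Finset.univ.filter fun a => β a = c, a.1 v := fun c v =>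
    AddMonoidHom.finsetSum_apply _ _ _
  have h1 : ∀ (a : I) c v, a.1 (π c v) = if β a = c then a.1 v else 0 := fun a c v => by
    rw [hπ, map_sum]
    split_ifs with h
    · rw [Finset.sum_eq_single a (fun b _ hb => orth a b hb.symm v) (by simp [h]), idem]
    · exact Finset.sum_eq_zero fun b hb => orth a b (by
        rintro rfl
        exact h (Finset.mem_filter.1 hb).2) v
  letI : Fintype (G ⧸ M) := Fintype.ofFinite _
  refine ⟨M, π, hM, fun c v => ?_, fun c d hcd v => ?_, fun v => ?_, fun g c v => ?_⟩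
  · change π c (π c v) = π c v
    rw [hπ c (π c v), hπ c v]
    exact Finset.sum_congr rfl fun a ha => by rw [← hπ, h1, if_pos (Finset.mem_filter.1 ha).2]
  · change π c (π d v) = 0
    rw [hπ]
    exact Finset.sum_eq_zero fun a ha => by rw [h1, if_neg ((Finset.mem_filter.1 ha).2 ▸ hcd)]
  · change ∑ᶠ c, π c v = v
    rw [finsum_eq_sum_of_fintype]
    simp only [hπ]
    rw [Finset.sum_fiberwise, hsum]
  · change π (g • c) (g • v) = g • π c v
    rw [hπ, hπ, Finset.smul_sum]
    exact (Finset.sum_equiv (MulAction.toPerm g) (fun a => by simp [hβ]) fun a _ => (hsm g a v).symm).symm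

theorem dich2 {G V : Type u} [Group G] [Finite G] [AddCommGroup V] [Finite V]
    [DistribMulAction G V] [FaithfulSMul G V] (hi : Irr G V) :
    (∃ (K : Type u) (_ : Field K) (_ : Finite K) (_ : Module K V),
      (∀ (g : G) (k : K), ∃ k' : K, ∀ v : V, g • k • v = k' • g • v) ∧
      ∀ D : Subgroup G, D.Normal → (∀ d ∈ D, Lin K V d) → (∀ a ∈ D, ∀ b ∈ D, a * b = b * a) →
        ∀ d ∈ D, Scal K V d) ∨
    ∃ (M : Subgroup G) (π : G ⧸ M → V →+ V), IsCoatom M ∧ Sys M π := by
  classical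
  haveI : Finite (AddMonoid.End V) :=
    Finite.of_injective (fun f : AddMonoid.End V => (f : V → V)) DFunLike.coe_injective
  haveI := hi.1
  obtain ⟨Z, ⟨hZn, hZc⟩, hZm⟩ := Set.Finite.exists_maximal (Set.toFinite
    {Z : Subgroup G | Z.Normal ∧ ∀ a ∈ Z, ∀ b ∈ Z, a * b = b * a})
    ⟨⊥, inferInstance, by simp⟩
  let ρ := DistribMulAction.toAddMonoidEnd G V
  let K := Subring.closure (ρ '' Z)
  have hc : ∀ f : AddMonoid.End V, (∀ z ∈ Z, f * ρ z = ρ z * f) → ∀ a ∈ K, f * a = a * f := by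
    intro f hf a ha
    have : K ≤ Subring.centralizer {f} := Subring.closure_le.2 (by
      rintro _ ⟨z, hz, rfl⟩
      exact Subring.mem_centralizer_iff.2 (by rintro _ rfl; exact hf z hz))
    exact Subring.mem_centralizer_iff.1 (this ha) f rfl
  have hK : ∀ a ∈ K, ∀ b ∈ K, a * b = b * a := fun a ha =>
    hc a fun z hz => (hc (ρ z) (fun y hy => by rw [← map_mul, ← map_mul, hZc z hz y hy]) a ha).symm
  have hKg : ∀ g : G, ∀ a ∈ K, cjE g a ∈ K := fun g a ha => by
    have : K ≤ K.comap (cjE g) := Subring.closure_le.2 (by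
      rintro _ ⟨z, hz, rfl⟩
      exact Subring.subset_closure ⟨_, hZn.conj_mem z hz g, (cjE_rho g z).symm⟩)
    exact this ha
  by_cases hid : ∀ f ∈ K, f * f = f → f = 0 ∨ f = 1
  swap
  · push Not at hid
    obtain ⟨f0, h0, h1, h2, h3⟩ := hid
    exact Or.inr (DI2.imp hi K hK hKg h0 h1 h2 h3)
  left
  have hred : ∀ a ∈ K, IsNilpotent a → a = 0 := by
    obtain ⟨v, hv, hm⟩ := exists_max_bdd {v : V | v ≠ 0}
      (fun v => {a | a ∈ K ∧ IsNilpotent a ∧ a v = 0}.ncard) (Nat.card (AddMonoid.End V))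
      (fun v _ => Set.ncard_le_card _) (exists_ne 0)
    have h1 : ∀ a ∈ K, IsNilpotent a → a v = 0 := by
      intro a ha hnil
      by_contra hav
      have hex : ∃ j, (a ^ j) v = 0 := by
        obtain ⟨j, hj⟩ := hnil
        exact ⟨j, by rw [hj]; rfl⟩
      have hj := Nat.find_spec hex
      obtain ⟨j, hj'⟩ : ∃ j, Nat.find hex = j + 1 := Nat.exists_eq_succ_of_ne_zero fun h => by
        rw [h] at hj; exact hv hj
      have hj2 := Nat.find_min hex (m := j) (by omega)
      rw [hj', pow_succ'] at hj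
      have h3 := hm _ hj2
      have h4 : {a | a ∈ K ∧ IsNilpotent a ∧ a v = 0} ⊂
          {b | b ∈ K ∧ IsNilpotent b ∧ b ((a ^ j) v) = 0} := by
        refine ⟨fun b ⟨b1, b2, b3⟩ => ⟨b1, b2, ?_⟩, fun h => hav (h ⟨ha, hnil, hj⟩).2.2⟩
        have := DFunLike.congr_fun (hK b b1 _ (pow_mem ha j)) v
        change b ((a ^ j) v) = (a ^ j) (b v) at this
        rw [this, b3, map_zero]
      exact absurd (Set.ncard_lt_ncard h4) (not_lt.2 h3)
    let U : AddSubgroup V :=
      { carrier := {v | ∀ a ∈ K, IsNilpotent a → a v = 0}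
        add_mem' := fun {v w} hv hw a ha hn => by rw [map_add, hv a ha hn, hw a ha hn, add_zero]
        zero_mem' := fun a _ _ => map_zero a
        neg_mem' := fun {v} hv a ha hn => by rw [map_neg, hv a ha hn, neg_zero] }
    rcases hi.2 U (fun g v hv a ha hn => by
      have := hv (cjE g⁻¹ a) (hKg _ _ ha) (hn.map _)
      rw [cjE_apply, inv_inv, smul_eq_zero_iff_eq] at this
      exact this) with h | h
    · have : v ∈ U := h1
      rw [h] at this
      exact absurd (AddSubgroup.mem_bot.1 this) hv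
    · intro a ha hn
      ext w
      have : w ∈ U := h ▸ AddSubgroup.mem_top w
      exact this a ha hn
  have hfield : IsField K := ⟨⟨0, 1, fun h => by
      obtain ⟨v, hv⟩ := exists_ne (0 : V)
      exact hv (DFunLike.congr_fun (congrArg Subtype.val h) v).symm⟩,
    fun a b => Subtype.ext (hK a a.2 b b.2), fun {a} ha => by
      obtain ⟨m, hm, h⟩ := exists_pow_idem a.1
      rcases hid _ (pow_mem a.2 m) h with h0 | h0
      · exact absurd (Subtype.ext (hred a a.2 ⟨m, h0⟩)) ha
      · obtain ⟨m, rfl⟩ : ∃ r, m = r + 1 := ⟨m - 1, by omega⟩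
        exact ⟨a ^ m, Subtype.ext (by rw [pow_succ'] at h0; exact h0)⟩⟩
  letI : Field K := hfield.toField
  letI iM : Module K V := inferInstanceAs (Module K V)
  refine ⟨K, inferInstance, inferInstance, iM,
    fun g a => ⟨⟨cjE g a.1, hKg g _ a.2⟩, fun v => (cjE_smul g a.1 v).symm⟩,
    fun D hD hl hDc d hd => ?_⟩
  have hDZ : ∀ d ∈ D, ∀ z ∈ Z, d * z = z * d := fun d hd z hz =>
    FaithfulSMul.eq_of_smul_eq_smul (α := V) fun v => by
      rw [mul_smul, mul_smul]
      exact hl d hd ⟨ρ z, Subring.subset_closure ⟨z, hz, rfl⟩⟩ v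
  have h1 : D ⊔ Z ≤ Z := hZm ⟨inferInstance, fun a ha b hb => by
    obtain ⟨a1, ha1, a2, ha2, rfl⟩ := mem_sup_of_normal_left.1 ha
    obtain ⟨b1, hb1, b2, hb2, rfl⟩ := mem_sup_of_normal_left.1 hb
    exact (Commute.mul_left (Commute.mul_right (hDc _ ha1 _ hb1) (hDZ _ ha1 _ hb2))
      (Commute.mul_right (hDZ _ hb1 _ ha2).symm (hZc _ ha2 _ hb2))).eq⟩ le_sup_right
  exact ⟨⟨ρ d, Subring.subset_closure ⟨d, h1 (mem_sup_left hd), rfl⟩⟩, fun v => rfl⟩

end H90.VS
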