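import Mathlib
import Cfsg.Agent.Base
import Cfsg.Agent.Lib.VSt.Defs
import Cfsg.Agent.Lib.KCl.ACT

set_option autoImplicit false
set_option linter.unusedSectionVars false

universe u

namespace H90.VS

open Subgroup MulAction H83.Base
open scoped commutatorElement

variable {G V K : Type u} [Group G] [Finite G] [AddCommGroup V] [Finite V] [Nontrivial V]
  [DistribMulAction G V] [FaithfulSMul G V] [Field K] [Finite K] [Module K V] {B : Subgroup G}

namespace EIG

theorem exists_lin {g : G} (hg : g ∈ LinS G K V) : ∃ f : V →ₗ[K] V, ∀ v, f v = g • v :=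
  ⟨⟨⟨fun v => g • v, smul_add g⟩, hg⟩, fun _ => rfl⟩

theorem ncard_bU {ι A : Type*} (T : Finset ι) (S : ι → Set A) {m : ℕ}
    (h : ∀ t ∈ T, (S t).ncard ≤ m) : (⋃ t ∈ T, S t).ncard ≤ T.card * m := by
  classical
  induction T using Finset.induction_on with
  | empty => simp
  | insert a s ha ih =>
    rw [Finset.set_biUnion_insert, Finset.card_insert_of_notMem ha, add_mul, one_mul, add_comm]
    exact (Set.ncard_union_le _ _).trans (add_le_add (h a (Finset.mem_insert_self _ _))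
      (ih fun t ht => h t (Finset.mem_insert_of_mem ht)))

theorem ncard_sub (U : Submodule K V) : (U : Set V).ncard = Nat.card K ^ Module.finrank K U := by
  rw [← Module.natCard_eq_pow_finrank, ← Nat.card_coe_set_eq]; rfl

theorem inner (c : Fc K V B) {r : ℕ}
    (hr : ∀ s : ℕ, s.Prime → s ∣ (ScalS G K V).relIndex B → r ≤ s) {y : G}
    (hy : y ∈ B) (hyS : y ∉ ScalS G K V) (k : K) (U : Submodule K V)
    (hU : ∀ v ∈ U, y • v = k • v) : r * Module.finrank K U ≤ Module.finrank K V := by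
  classical
  by_cases hk : k = 0
  · have : U = ⊥ := (Submodule.eq_bot_iff U).2 fun v hv => by
      rw [← inv_smul_smul y v, hU v hv, hk, zero_smul, smul_zero]
    rw [this, finrank_bot, mul_zero]
    exact Nat.zero_le _
  obtain ⟨b, hb, hyb⟩ : ∃ b ∈ B, ¬ Commute y b := by
    by_contra h
    push Not at h
    exact hyS (c.cen y (c.le hy) h)
  obtain ⟨ζ, hζ⟩ := c.comm y hy b hb
  have h1 : ∀ (i : ℕ) (v : V), y • b ^ i • v = ζ ^ i • b ^ i • y • v := fun i => by
    induction i with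
    | zero => simp
    | succ i ih =>
      intro v
      rw [pow_succ' b, mul_smul, mul_smul, ← mul_smul y b,
        show y * b = ⁅y, b⁆ * (b * y) by rw [commutatorElement_def]; group, mul_smul, hζ, mul_smul,
        ih, c.le hb, smul_smul, ← pow_succ']
  have := c.pre.nS
  have hn : ζ ^ (ScalS G K V).relIndex B = 1 := by
    obtain ⟨v, hv⟩ := exists_ne (0 : V)
    have := h1 ((ScalS G K V).relIndex B) v
    rw [← mul_smul, (c.pre.cen _ (pow_relIndex_mem _ hb) y (c.le hy)).eq, mul_smul] at this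
    refine smul_left_injective K (m := b ^ (ScalS G K V).relIndex B • y • v)
      (fun e => hv ((smul_eq_zero_iff_eq y).1 ((smul_eq_zero_iff_eq _).1 e))) ?_
    simp only [one_smul]
    exact this.symm
  have hz : orderOf ζ ≠ 1 := fun e => hyb (commutatorElement_eq_one_iff_commute.1
    (FaithfulSMul.eq_of_smul_eq_smul (α := V) fun v => by
      rw [hζ, orderOf_eq_one_iff.1 e, one_smul, one_smul]))
  have hd := orderOf_dvd_of_pow_eq_one hn
  have hro : r ≤ orderOf ζ := (hr _ (Nat.minFac_prime hz) ((Nat.minFac_dvd _).trans hd)).trans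
    (Nat.minFac_le (Nat.pos_of_dvd_of_pos hd (Nat.pos_of_ne_zero index_ne_zero_of_finite)))
  choose f hf using fun i : Fin r => exists_lin (K := K) (V := V) (c.le (pow_mem hb i))
  have := LinearMap.finrank_le_finrank_of_injective
    (f := ∑ i : Fin r, (f i ∘ₗ U.subtype) ∘ₗ LinearMap.proj (φ := fun _ : Fin r => U) i)
    ((injective_iff_map_eq_zero _).2 fun u hu => funext fun i => by
      have := wt_indep (J := Unit) (fun _ => DistribSMul.toAddMonoidHom V y)
        (fun _ => c.le hy) (fun (i : Fin r) _ => ζ ^ (i : ℕ) * k) Finset.univ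
        (fun i _ j _ e => Fin.ext (pow_injOn_Iio_orderOf (i.2.trans_le hro) (j.2.trans_le hro)
          (mul_right_cancel₀ hk (congrFun e ()))))
        (fun i => b ^ (i : ℕ) • (u i : V)) (fun i _ _ => by
          rw [DistribSMul.toAddMonoidHom_apply, h1, hU _ (u i).2, c.le (pow_mem hb i), smul_smul])
        (by simpa [hf] using hu) i (Finset.mem_univ i)
      exact Subtype.ext ((smul_eq_zero_iff_eq _).1 this))
  rwa [Module.finrank_pi_fintype, Finset.sum_const, Finset.card_univ, Fintype.card_fin,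
    smul_eq_mul] at this

theorem convex {q c i j : ℕ} (hq : 1 ≤ q) : q ^ (c + i) + q ^ (c + j) ≤ q ^ (c + i + j) + q ^ c := by
  obtain ⟨a, ha⟩ := Nat.exists_eq_add_of_le (Nat.one_le_pow i q hq)
  obtain ⟨b, hb⟩ := Nat.exists_eq_add_of_le (Nat.one_le_pow j q hq)
  simp only [pow_add, ha, hb]
  nlinarith [Nat.zero_le (q ^ c * a * b)]

theorem eig_card (f : Module.End K V) {D : ℕ} (hD : D ≤ Module.finrank K V)
    (h : ∀ k, Module.finrank K (f.eigenspace k) ≤ D) : {v | ∃ k : K, f v = k • v}.ncard ≤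
      Nat.card K ^ D + Nat.card K ^ (Module.finrank K V - D) := by
  classical
  have hq : 1 ≤ Nat.card K := Nat.card_pos
  by_cases hk : ∃ k, Module.finrank K V - D ≤ Module.finrank K (f.eigenspace k)
  · obtain ⟨k, hk⟩ := hk
    have h1 := Submodule.finrank_add_finrank_le_of_disjoint (f.eigenspaces_iSupIndep k)
    refine (Set.ncard_le_ncard (t := (f.eigenspace k : Set V) ∪
      (⨆ (j : K) (_ : j ≠ k), f.eigenspace j : Submodule K V)) ?_).trans
      ((Set.ncard_union_le _ _).trans ?_)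
    · rintro v ⟨j, hj⟩
      by_cases e : j = k
      · exact Or.inl (e ▸ Module.End.mem_eigenspace_iff.2 hj)
      · exact Or.inr (le_iSup₂ (f := fun (j : K) (_ : j ≠ k) => f.eigenspace j) j e
          (Module.End.mem_eigenspace_iff.2 hj))
    rw [ncard_sub, ncard_sub]
    obtain ⟨i, hi⟩ := Nat.exists_eq_add_of_le hk
    obtain ⟨j, hj⟩ := Nat.exists_eq_add_of_le (h k)
    rw [hi] at hj h1 ⊢
    generalize hc : Module.finrank K V - D = c at *
    rw [hj]
    exact (Nat.add_le_add_left (Nat.pow_le_pow_right hq (by omega)) _).trans (convex hq)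
  push Not at hk
  have := Fintype.ofFinite K
  obtain ⟨c, hc⟩ : ∃ c, Module.finrank K V - D = c + 1 := ⟨Module.finrank K V - D - 1, by
    have := hk 0; omega⟩
  refine le_add_left ((Set.ncard_le_ncard (t := ⋃ k ∈ (Finset.univ : Finset K),
    (f.eigenspace k : Set V)) ?_).trans ((ncard_bU _ _ (m := Nat.card K ^ c) fun k _ => ?_).trans ?_))
  · rintro v ⟨j, hj⟩
    exact Set.mem_iUnion₂.2 ⟨j, Finset.mem_univ j, Module.End.mem_eigenspace_iff.2 hj⟩
  · rw [ncard_sub]
    exact Nat.pow_le_pow_right hq (by have := hk k; omega)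
  · rw [hc, Finset.card_univ, ← Nat.card_eq_fintype_card, pow_succ']

end EIG

theorem Fc.exists_T (c : Fc K V B) : ∃ T : Finset G,
    (∀ t ∈ T, t ∈ LinS G K V ∧ t ∉ ScalS G K V) ∧
    (∀ x ∈ LinS G K V, x ∉ ScalS G K V → ∃ t ∈ T, t⁻¹ * x ∈ ScalS G K V ∨ t * x ∈ ScalS G K V) ∧
    T.card ≤ (ScalS G K V).relIndex (LinS G K V) ∧
    (Odd ((ScalS G K V).relIndex (LinS G K V)) →
      2 * T.card < (ScalS G K V).relIndex (LinS G K V)) := by
  classical
  have := c.pre.nS
  generalize LinS G K V = Λ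
  generalize ScalS G K V = S at *
  have := Fintype.ofFinite (Λ ⧸ S.subgroupOf Λ)
  obtain ⟨enc, he⟩ := exists_injective_nat (Λ ⧸ S.subgroupOf Λ)
  have hc : S.relIndex Λ = Fintype.card (Λ ⧸ S.subgroupOf Λ) := Nat.card_eq_fintype_card
  obtain ⟨T, hT⟩ : ∃ T : Finset (Λ ⧸ S.subgroupOf Λ), ∀ x, x ∈ T ↔ x ≠ 1 ∧ enc x ≤ enc x⁻¹ :=
    ⟨Finset.univ.filter fun x => x ≠ 1 ∧ enc x ≤ enc x⁻¹, fun x => by simp⟩
  refine ⟨T.image fun x => (x.out : G), fun t ht => ?_, fun x hx hxS => ?_,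
    Finset.card_image_le.trans (hc ▸ Finset.card_le_univ T), fun ho => ?_⟩
  · obtain ⟨x, hx, rfl⟩ := Finset.mem_image.1 ht
    exact ⟨x.out.2, fun h => ((hT x).1 hx).1
      ((QuotientGroup.out_eq' x).symm.trans ((QuotientGroup.eq_one_iff _).2 h))⟩
  · obtain ⟨a, ha⟩ : ∃ a : Λ ⧸ S.subgroupOf Λ, a = QuotientGroup.mk ⟨x, hx⟩ := ⟨_, rfl⟩
    have a1 : a ≠ 1 := fun e => hxS ((QuotientGroup.eq_one_iff (N := S.subgroupOf Λ) _).1
      (ha.symm.trans e))
    rcases le_total (enc a) (enc a⁻¹) with e | e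
    · exact ⟨_, Finset.mem_image_of_mem _ ((hT a).2 ⟨a1, e⟩),
        Or.inl ((QuotientGroup.eq (s := S.subgroupOf Λ)).1 ((QuotientGroup.out_eq' a).trans ha))⟩
    · refine ⟨_, Finset.mem_image_of_mem _ ((hT a⁻¹).2 ⟨inv_ne_one.2 a1, by rwa [inv_inv]⟩),
        Or.inr ((QuotientGroup.eq_one_iff (N := S.subgroupOf Λ) (a⁻¹.out * ⟨x, hx⟩ : Λ)).1 ?_)⟩
      rw [QuotientGroup.mk_mul, QuotientGroup.out_eq', ← ha, inv_mul_cancel]
  · have hd : Disjoint T (T.image (·⁻¹)) := Finset.disjoint_left.2 fun x hx hx' => by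
      obtain ⟨y, hy, rfl⟩ := Finset.mem_image.1 hx'
      have e := he (le_antisymm ((hT y).1 hy).2 (by simpa using ((hT _).1 hx).2))
      obtain ⟨m, hm⟩ := ho
      have h1 : y ^ S.relIndex Λ = 1 := pow_card_eq_one'
      rw [hm, pow_succ, pow_mul, pow_two, eq_inv_iff_mul_eq_one.1 e, one_pow, one_mul] at h1
      exact ((hT y).1 hy).1 h1
    have h1 := Finset.card_lt_card (s := T ∪ T.image (·⁻¹)) (t := Finset.univ)
      (Finset.ssubset_univ_iff.2 fun e => by
        rcases Finset.mem_union.1 (e ▸ Finset.mem_univ 1) with h | h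
        · exact ((hT 1).1 h).1 rfl
        · obtain ⟨y, hy, e⟩ := Finset.mem_image.1 h
          exact ((hT y).1 hy).1 (inv_eq_one.1 e))
    rw [Finset.card_union_of_disjoint hd, Finset.card_image_of_injective _ inv_injective,
      Finset.card_univ, ← hc, ← two_mul] at h1
    exact (Nat.mul_le_mul_left 2 Finset.card_image_le).trans_lt h1

theorem Fc.eig_dim (c : Fc K V B) {r : ℕ}
    (hr : ∀ s : ℕ, s.Prime → s ∣ (ScalS G K V).relIndex B → r ≤ s) (hr2 : 2 ≤ r) {x : G}
    (hx : x ∈ LinS G K V) (hxS : x ∉ ScalS G K V) (k : K) (U : Submodule K V)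
    (hU : ∀ v ∈ U, x • v = k • v) :
    Module.finrank K U ≤ (Module.finrank K V + Module.finrank K V / r) / 2 := by
  have key : ∀ y ∈ B, y ∉ ScalS G K V → ∀ (k : K) (U : Submodule K V), (∀ v ∈ U, y • v = k • v) →
      Module.finrank K U ≤ Module.finrank K V / r := fun y hy hyS k U hU =>
    (Nat.le_div_iff_mul_le (by omega)).2 (mul_comm r _ ▸ EIG.inner c hr hy hyS k U hU)
  by_cases hB : x ∈ B
  · have := key x hB hxS k U hU
    have := U.finrank_le
    omega
  have := c.normal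
  obtain ⟨b, hb, hS⟩ : ∃ b ∈ B, ⁅x⁻¹, b⁆ ∉ ScalS G K V := by
    by_contra h
    push Not at h
    exact hB (inv_mem_iff.1 (H90.KC.mem_B c.pre c.le c.sle c.comm c.cen (inv_mem hx) h))
  obtain ⟨f, hf⟩ := EIG.exists_lin (K := K) (V := V) (c.le hb)
  have h1 := key _ (mul_mem (this.conj_mem b hb x⁻¹) (inv_mem hb)) hS 1 (U ⊓ U.map f) (by
    rintro _ ⟨h1, u, hu, rfl⟩
    rw [one_smul, inv_inv, mul_smul, mul_smul, mul_smul, inv_smul_eq_iff, hU _ h1, hf,
      inv_smul_smul, hU u hu, c.le hb])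
  have h2 := Submodule.finrank_sup_add_finrank_inf_eq U (U.map f)
  rw [← (Submodule.equivMapOfInjective f (fun a b e => smul_left_cancel _
    ((hf a).symm.trans (e.trans (hf b)))) U).finrank_eq] at h2
  have := (U ⊔ U.map f).finrank_le
  omega

theorem Fc.good_card (c : Fc K V B) {r D : ℕ}
    (hr : ∀ s : ℕ, s.Prime → s ∣ (ScalS G K V).relIndex B → r ≤ s) (hr2 : 2 ≤ r)
    (hD : D = (Module.finrank K V + Module.finrank K V / r) / 2) (T : Finset G)
    (hT : ∀ t ∈ T, t ∈ LinS G K V ∧ t ∉ ScalS G K V)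
    (hcov : ∀ x ∈ LinS G K V, x ∉ ScalS G K V →
      ∃ t ∈ T, t⁻¹ * x ∈ ScalS G K V ∨ t * x ∈ ScalS G K V) :
    Nat.card V ≤ 1 + {v : V | v ≠ 0 ∧ ∀ x ∈ LinS G K V, x • v = v → x = 1}.ncard +
      T.card * (Nat.card K ^ D + Nat.card K ^ (Module.finrank K V - D)) := by
  rw [← Set.ncard_univ]
  refine (Set.ncard_le_ncard (t := {0} ∪ {v : V | v ≠ 0 ∧ ∀ x ∈ LinS G K V, x • v = v → x = 1} ∪
    ⋃ t ∈ T, {v : V | ∃ k : K, t • v = k • v}) fun v _ => ?_).trans
    ((Set.ncard_union_le _ _).trans (add_le_add ((Set.ncard_union_le _ _).trans (by simp))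
      (EIG.ncard_bU _ _ fun t ht => ?_)))
  · by_cases v0 : v = 0
    · exact Or.inl (Or.inl v0)
    by_cases h : ∀ x ∈ LinS G K V, x • v = v → x = 1
    · exact Or.inl (Or.inr ⟨v0, h⟩)
    push Not at h
    obtain ⟨x, hx, e, x1⟩ := h
    obtain ⟨t, ht, h⟩ := hcov x hx fun s => x1 (scal_eq_one s v0 e)
    refine Or.inr (Set.mem_iUnion₂.2 ⟨t, ht, ?_⟩)
    rcases h with h | ⟨k, h⟩
    · obtain ⟨k, h⟩ := inv_mem h
      have := h v
      rw [mul_inv_rev, inv_inv, mul_smul, inv_smul_eq_iff, hx, e] at this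
      exact ⟨k, this⟩
    · exact ⟨k, by rw [← h, mul_smul, e]⟩
  · obtain ⟨f, hf⟩ := EIG.exists_lin (hT t ht).1
    simp_rw [← hf]
    refine EIG.eig_card f ?_ fun k => hD ▸ c.eig_dim hr hr2 (hT t ht).1 (hT t ht).2 k _
      fun v hv => (hf v).symm.trans (Module.End.mem_eigenspace_iff.1 hv)
    have := Nat.div_le_self (Module.finrank K V) r
    omega

end H90.VS
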