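import Mathlib
import Cfsg.Agent.Base
import Cfsg.Agent.Lib.VSt.Defs
import Cfsg.Agent.Lib.KCl.E4
import Cfsg.Agent.Lib.KCl.SQ

set_option autoImplicit false
set_option linter.unusedSectionVars false

universe u

namespace H90.VS

open Subgroup MulAction H83.Base
open scoped commutatorElement

variable {Q W : Type u} {K : Type*} [Group Q] [Finite Q] [AddCommGroup W] [Finite W]
  [DistribMulAction Q W] [FaithfulSMul Q W] [Field K] [Finite K]

namespace FB

open H90.KC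

theorem fib (β : W →+ W →+ Additive Kˣ) (nd : ∀ x, (∀ y, β x y = 0) → x = 0) {r : ℕ}
    (hr : ∀ s : ℕ, s.Prime → s ∣ Nat.card W → r ≤ s) (c : Additive Kˣ) {u : W} (hu : u ≠ 0) :
    r * Nat.card {v : W // β u v = c} ≤ Nat.card W := by
  have h1 : Nat.card {v : W // β u v = c} ≤ Nat.card (β u).ker := by
    rcases isEmpty_or_nonempty {v : W // β u v = c} with h | ⟨⟨v0, h0⟩⟩
    · simp
    · refine Nat.card_le_card_of_injective (fun v => ⟨v.1 - v0, ?_⟩) fun a b e => ?_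
      · rw [AddMonoidHom.mem_ker, map_sub, v.2, h0, sub_self]
      · exact Subtype.ext (sub_left_injective (congrArg Subtype.val e))
  have h2 : (β u).ker.index ≠ 1 := fun e => hu (nd u fun y =>
    ((AddSubgroup.index_eq_one.1 e).ge (AddSubgroup.mem_top y) : y ∈ (β u).ker))
  obtain ⟨s, hs, hd⟩ := Nat.exists_prime_and_dvd h2
  have h3 := hr s hs (hd.trans (AddSubgroup.index_dvd_card _))
  have h4 := Nat.le_of_dvd (Nat.pos_of_ne_zero (AddSubgroup.index_ne_zero_of_finite)) hd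
  rw [← (β u).ker.index_mul_card]
  exact Nat.mul_le_mul (h3.trans h4) h1

theorem tot (β : W →+ W →+ Additive Kˣ) (nd : ∀ x, (∀ y, β x y = 0) → x = 0) {r : ℕ}
    (hr : ∀ s : ℕ, s.Prime → s ∣ Nat.card W → r ≤ s) (c : Additive Kˣ) :
    r * Nat.card (Σ u : W, {v : W // β u v = c}) ≤
      (Nat.card W - 1) * Nat.card W + r * Nat.card W := by
  classical
  have := Fintype.ofFinite W
  rw [Nat.card_sigma, Finset.mul_sum, ← Finset.sum_erase_add _ _ (Finset.mem_univ (0 : W))]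
  refine Nat.add_le_add ?_ (Nat.mul_le_mul_left _
    (Nat.card_le_card_of_injective Subtype.val Subtype.val_injective))
  refine (Finset.sum_le_card_nsmul _ _ (Nat.card W) fun u hu =>
    fib β nd hr c (Finset.ne_of_mem_erase hu)).trans ?_
  rw [Finset.card_erase_of_mem (Finset.mem_univ _), Finset.card_univ, smul_eq_mul,
    Nat.card_eq_fintype_card]

theorem cop {p n : ℕ} [hp : Fact p.Prime] (h : Nat.card W = p ^ n) (U : AddSubgroup W)
    (hU : ¬ p ∣ Nat.card U) : U = ⊥ := by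
  have a : Nat.card U ∣ p ^ n := h ▸ AddSubgroup.card_addSubgroup_dvd_card _
  exact AddSubgroup.card_eq_one.1 (Nat.Coprime.eq_one_of_dvd
    (((Nat.Prime.coprime_iff_not_dvd hp.out).2 hU).symm.pow_right n) a)

theorem elem (hcr : ∀ U : AddSubgroup W, Invt Q U →
      ∃ U' : AddSubgroup W, Invt Q U' ∧ U ⊓ U' = ⊥ ∧ U ⊔ U' = ⊤)
    {p n : ℕ} [hp : Fact p.Prime] (h : Nat.card W = p ^ n) (w : W) : p • w = 0 := by
  obtain ⟨U', -, a, b⟩ := hcr (nsmulAddMonoidHom (α := W) p).ker fun g v hv => by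
    change p • g • v = 0
    rw [← smul_comm, show p • v = 0 from hv, smul_zero]
  have : U' = ⊥ := cop h U' fun hd => by
    obtain ⟨w, hw⟩ := exists_prime_addOrderOf_dvd_card' p hd
    have c : (w : W) ∈ (nsmulAddMonoidHom (α := W) p).ker ⊓ U' :=
      ⟨congrArg Subtype.val (hw ▸ addOrderOf_nsmul_eq_zero w : p • w = 0), w.2⟩
    rw [a] at c
    rw [show w = 0 from Subtype.ext c, addOrderOf_zero] at hw
    exact hp.out.one_lt.ne hw
  rw [this, sup_bot_eq] at b
  exact (b.ge (AddSubgroup.mem_top w) : w ∈ (nsmulAddMonoidHom (α := W) p).ker)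

theorem dvd (hcr : ∀ U : AddSubgroup W, Invt Q U →
      ∃ U' : AddSubgroup W, Invt Q U' ∧ U ⊓ U' = ⊥ ∧ U ⊔ U' = ⊤)
    {p n : ℕ} [hp : Fact p.Prime] (h : Nat.card W = p ^ n) :
    Nat.card Q ∣ ∏ i : Fin n, (p ^ n - p ^ (i : ℕ)) := by
  let φ : Q →* MulAut (Multiplicative W) := MonoidHom.mk'
    (fun g => AddEquiv.toMultiplicative (DistribMulAction.toAddEquiv W g))
    fun a b => MulEquiv.ext fun v => mul_smul a b v.toAdd
  have hφ : Function.Injective φ := fun a b e =>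
    FaithfulSMul.eq_of_smul_eq_smul (M := Q) (α := W) fun v => MulEquiv.congr_fun e (.ofAdd v)
  obtain ⟨e⟩ := H23.nonempty_mulAut_equiv_GL (W := Multiplicative W) (p := p) (n := n)
    inferInstance (fun w => elem hcr h w.toAdd) h
  have := card_dvd_of_injective φ hφ
  rw [Nat.card_congr e.toEquiv, Matrix.card_GL_field, ZMod.card] at this
  exact this

theorem nop (hcr : ∀ U : AddSubgroup W, Invt Q U →
      ∃ U' : AddSubgroup W, Invt Q U' ∧ U ⊓ U' = ⊥ ∧ U ⊔ U' = ⊤)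
    {p n : ℕ} [hp : Fact p.Prime] (h : Nat.card W = p ^ n) (Q₀ : Subgroup Q) [Q₀.Normal]
    (hd : ∀ d, d ∣ Nat.card Q₀ → d ≡ 1 [MOD p] → d = 1) : ¬ p ∣ Nat.card Q₀ := by
  intro hdv
  obtain ⟨P⟩ : Nonempty (Sylow p Q₀) := inferInstance
  have h1 : Nat.card (Sylow p Q₀) = 1 :=
    hd _ (P.card_dvd_index.trans (index_dvd_card _)) (card_sylow_modEq_one p Q₀)
  have : Subsingleton (Sylow p Q₀) := (Nat.card_eq_one_iff_unique.1 h1).1
  have hN : ((P : Subgroup Q₀).map Q₀.subtype).Normal := inferInstance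
  obtain ⟨U', i, a, b⟩ := hcr (E4.Fx W ((P : Subgroup Q₀).map Q₀.subtype)) fun g v hv x hx => by
    have := hv _ (hN.conj_mem' x hx g)
    rw [mul_smul, mul_smul, inv_smul_eq_iff] at this
    exact this
  have c := E4.cong (P.isPGroup'.map Q₀.subtype) U' fun g _ v hv => i g v hv
  rw [inf_comm, a, AddSubgroup.card_bot] at c
  rw [cop h U' (fun e => hp.out.not_dvd_one ((c.dvd_iff dvd_rfl).1 e)), sup_bot_eq] at b
  exact P.ne_bot_of_dvd_card hdv
    ((map_eq_bot_iff_of_injective _ Q₀.subtype_injective).1 (E4.eq_bot b))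

theorem odd_dvd {m a k : ℕ} (ho : Odd m) (h : m ∣ 2 ^ k * a) : m ∣ a :=
  (Nat.Coprime.pow_right k (Nat.coprime_two_right.2 ho)).dvd_of_dvd_mul_left h

theorem no13 (h3 : ∀ w : W, 3 • w = 0) (Q₀ : Subgroup Q) (β : W →+ W →+ Additive Kˣ)
    (alt : ∀ x, β x x = 0) (nd : ∀ x, (∀ y, β x y = 0) → x = 0)
    (inv : ∀ g ∈ Q₀, ∀ x y, β (g • x) (g • y) = β x y) (h : Nat.card W = 81) :
    ¬ 13 ∣ Nat.card Q₀ := by
  intro hd
  have : Fact (Nat.Prime 13) := ⟨by norm_num⟩
  have : Fact (Nat.Prime 3) := ⟨Nat.prime_three⟩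
  obtain ⟨⟨g, hg⟩, ho⟩ := exists_prime_orderOf_dvd_card' 13 hd
  have ho' : orderOf g = 13 := by rw [← ho]; exact (orderOf_coe (⟨g, hg⟩ : Q₀))
  have hP : Nat.card (zpowers g) = 13 := by rw [Nat.card_zpowers, ho']
  have hP' : IsPGroup 13 (zpowers g) := IsPGroup.of_card (n := 1) (by rw [hP, pow_one])
  have ne : E4.Fx W (zpowers g) ≠ ⊤ := fun e => by
    rw [E4.eq_bot e, card_bot] at hP
    omega
  have m1 := E4.cong hP' (⊤ : AddSubgroup W) fun _ _ _ _ => AddSubgroup.mem_top _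
  have m2 : Nat.card (E4.Fx W (zpowers g)) ∣ 81 := h ▸ AddSubgroup.card_addSubgroup_dvd_card _
  have m3 : Nat.card (E4.Fx W (zpowers g)) ≠ 81 := fun e =>
    ne ((AddSubgroup.card_eq_iff_eq_top _).1 (e.trans h.symm))
  rw [top_inf_eq, AddSubgroup.card_top, h] at m1
  have m4 : Nat.card (E4.Fx W (zpowers g)) = 3 := by
    obtain ⟨i, hi, e⟩ := (Nat.dvd_prime_pow Nat.prime_three (m := 4)).1 m2
    rw [e] at m1 m3 ⊢
    unfold Nat.ModEq at m1
    interval_cases i <;> omega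
  have : Nontrivial (E4.Fx W (zpowers g)) := Finite.one_lt_card_iff_nontrivial.1 (by omega)
  obtain ⟨w, hw⟩ := exists_ne (0 : E4.Fx W (zpowers g))
  refine hw (Subtype.ext (nd _ fun x => ?_))
  have g13 : g ^ 13 = 1 := ho' ▸ pow_orderOf_eq_one g
  have hN : (∑ i ∈ Finset.range 13, g ^ i • x) ∈ E4.Fx W (zpowers g) := by
    have : g • ∑ i ∈ Finset.range 13, g ^ i • x = ∑ i ∈ Finset.range 13, g ^ i • x := by
      have e1 := Finset.sum_range_succ' (fun i => g ^ i • x) 13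
      have e2 := Finset.sum_range_succ (fun i => g ^ i • x) 13
      simp only [g13, pow_zero] at e1 e2
      rw [Finset.smul_sum]
      simp only [← mul_smul, ← pow_succ']
      exact add_right_cancel (e1.symm.trans e2)
    exact fun a ha => (zpowers_le.2 (show g ∈ stabilizer Q _ from this) ha : a ∈ stabilizer Q _)
  obtain ⟨k, hk⟩ := mem_zmultiples_of_prime_card m4 hw (g' := ⟨_, hN⟩)
  have e1 : β w (∑ i ∈ Finset.range 13, g ^ i • x) = 0 := by
    have := congrArg Subtype.val hk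
    simp only [AddSubgroupClass.coe_zsmul] at this
    rw [← this, map_zsmul, alt, smul_zero]
  have e2 : ∀ i : ℕ, β w (g ^ i • x) = β w x := fun i => by
    rw [← inv _ (pow_mem hg i) w x, w.2 _ (pow_mem (mem_zpowers g) i)]
  have e3 : 3 • β w x = 0 := by rw [← map_nsmul, h3, map_zero]
  rw [map_sum] at e1
  simp only [e2, Finset.sum_const, Finset.card_range] at e1
  rw [show 13 = 1 + 4 * 3 from rfl, add_smul, one_smul, mul_smul, e3, smul_zero, add_zero] at e1
  exact e1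

end FB

theorem fb_gen (hs : Group.IsSolvable Q) (ho : Odd (Nat.card Q))
    (hcr : ∀ U : AddSubgroup W, Invt Q U →
      ∃ U' : AddSubgroup W, Invt Q U' ∧ U ⊓ U' = ⊥ ∧ U ⊔ U' = ⊤)
    (Q₀ : Subgroup Q) (β : W →+ W →+ Additive Kˣ) (nd : ∀ x, (∀ y, β x y = 0) → x = 0)
    (inv : ∀ g ∈ Q₀, ∀ x y, β (g • x) (g • y) = β x y) (hw : Odd (Nat.card W))
    (h1 : 1 < Nat.card W) {r : ℕ} (hr : ∀ s : ℕ, s.Prime → s ∣ Nat.card W → r ≤ s) :
    2 * r * Nat.card Q₀ ≤ (Nat.card W - 1) * Nat.card W + r * Nat.card W := by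
  have c2 : (Nat.card Q).Coprime 2 := Nat.coprime_two_right.2 ho
  obtain ⟨v, hv⟩ : BaseK 2 Q W := base_of_cr hcr fun U hU hi =>
    @ModP.base 2 2 0 modP_odd Q U _ _ _ _ (subAct Q U hU) hs c2 (fun v => zero_nsmul v) hi
  have one : ∀ g : Q, g • v 0 = v 0 → g • v 1 = v 1 → g = 1 := fun g a b =>
    FaithfulSMul.eq_of_smul_eq_smul (M := Q) (α := W) fun x => by
      rw [one_smul]; exact hv g (Fin.forall_fin_two.2 ⟨a, b⟩) x
  have inj : ∀ g g' : Q, g • v 0 = g' • v 0 → g • v 1 = g' • v 1 → g = g' := fun g g' a b =>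
    (inv_mul_eq_one.1 (one (g'⁻¹ * g) (by rw [mul_smul, a, inv_smul_smul])
      (by rw [mul_smul, b, inv_smul_smul]))).symm
  by_cases h0 : v 0 = 0 ∧ v 1 = 0
  · have : Q₀ = ⊥ := eq_bot_iff.2 fun g _ => one g (by rw [h0.1, smul_zero]) (by rw [h0.2, smul_zero])
    rw [this, card_bot, mul_one, mul_comm 2]
    exact (Nat.mul_le_mul_left r h1).trans (Nat.le_add_left _ _)
  have neg : ∀ (g : Q) (x : W), g • x = -x → x = 0 := fun g x e => by
    have a : g • x = x := fix_of_pow c2 (by rw [sq, mul_smul, e, smul_neg, e, neg_neg])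
    have b : 2 • x = 0 := by rw [two_smul]; exact eq_neg_iff_add_eq_zero.1 (a.symm.trans e)
    exact AddMonoid.addOrderOf_eq_one_iff.1 (Nat.Coprime.eq_one_of_dvd
      ((Nat.coprime_two_right.2 hw).coprime_dvd_left (addOrderOf_dvd_natCard x))
      (addOrderOf_dvd_of_nsmul_eq_zero b))
  have dis : ∀ g g' : Q, g • v 0 = -(g' • v 0) → g • v 1 = -(g' • v 1) → False := fun g g' a b =>
    h0 ⟨neg (g'⁻¹ * g) _ (by rw [mul_smul, a, smul_neg, inv_smul_smul]),
      neg (g'⁻¹ * g) _ (by rw [mul_smul, b, smul_neg, inv_smul_smul])⟩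
  let F : Q₀ ⊕ Q₀ → Σ u : W, {w : W // β u w = β (v 0) (v 1)} := fun z =>
    match z with
    | .inl g => ⟨g.1 • v 0, g.1 • v 1, inv g g.2 _ _⟩
    | .inr g => ⟨-(g.1 • v 0), -(g.1 • v 1), by
        rw [map_neg, map_neg, AddMonoidHom.neg_apply, neg_neg, inv g g.2]⟩
  have hF : Function.Injective F := by
    intro a b e
    have e0 := congrArg (fun z : Σ u : W, {w : W // β u w = β (v 0) (v 1)} => z.1) e
    have e1 := congrArg (fun z : Σ u : W, {w : W // β u w = β (v 0) (v 1)} => z.2.1) e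
    rcases a with a | a <;> rcases b with b | b
    · exact congrArg _ (Subtype.ext (inj _ _ e0 e1))
    · exact (dis _ _ e0 e1).elim
    · exact (dis _ _ e0.symm e1.symm).elim
    · exact congrArg _ (Subtype.ext (inj _ _ (neg_injective e0) (neg_injective e1)))
  have := Nat.card_le_card_of_injective F hF
  rw [Nat.card_sum] at this
  refine le_trans ?_ (FB.tot β nd hr (β (v 0) (v 1)))
  calc 2 * r * Nat.card Q₀ = r * (Nat.card Q₀ + Nat.card Q₀) := by ring
    _ ≤ _ := Nat.mul_le_mul_left r this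

theorem fb_9 (ho : Odd (Nat.card Q))
    (hcr : ∀ U : AddSubgroup W, Invt Q U →
      ∃ U' : AddSubgroup W, Invt Q U' ∧ U ⊓ U' = ⊥ ∧ U ⊔ U' = ⊤)
    (h : Nat.card W = 9) : Nat.card Q ≤ 1 := by
  have : Fact (Nat.Prime 3) := ⟨Nat.prime_three⟩
  have a := FB.dvd hcr (p := 3) (n := 2) h
  have b : Nat.card Q ∣ 3 := FB.odd_dvd (k := 4) ho (by simpa [Fin.prod_univ_two] using a)
  have c := FB.nop hcr (p := 3) (n := 2) h ⊤ fun d h1 h2 => by
    rw [card_top] at h1
    have h3 := h1.trans b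
    have := Nat.le_of_dvd (by norm_num) h3
    unfold Nat.ModEq at h2
    interval_cases d <;> omega
  rw [card_top] at c
  have := Nat.le_of_dvd (by norm_num) b
  generalize Nat.card Q = m at *
  interval_cases m <;> omega

theorem fb_25 (ho : Odd (Nat.card Q))
    (hcr : ∀ U : AddSubgroup W, Invt Q U →
      ∃ U' : AddSubgroup W, Invt Q U' ∧ U ⊓ U' = ⊥ ∧ U ⊔ U' = ⊤)
    (h : Nat.card W = 25) : Nat.card Q ≤ 3 := by
  have : Fact (Nat.Prime 5) := ⟨Nat.prime_five⟩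
  have a := FB.dvd hcr (p := 5) (n := 2) h
  have b : Nat.card Q ∣ 15 := FB.odd_dvd (k := 5) ho (by simpa [Fin.prod_univ_two] using a)
  have c := FB.nop hcr (p := 5) (n := 2) h ⊤ fun d h1 h2 => by
    rw [card_top] at h1
    have h3 := h1.trans b
    have := Nat.le_of_dvd (by norm_num) h3
    unfold Nat.ModEq at h2
    interval_cases d <;> omega
  rw [card_top] at c
  have := Nat.le_of_dvd (by norm_num) b
  generalize Nat.card Q = m at *
  interval_cases m <;> omega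

theorem fb_81 (ho : Odd (Nat.card Q))
    (hcr : ∀ U : AddSubgroup W, Invt Q U →
      ∃ U' : AddSubgroup W, Invt Q U' ∧ U ⊓ U' = ⊥ ∧ U ⊔ U' = ⊤)
    (Q₀ : Subgroup Q) [Q₀.Normal] (β : W →+ W →+ Additive Kˣ) (alt : ∀ x, β x x = 0)
    (nd : ∀ x, (∀ y, β x y = 0) → x = 0) (inv : ∀ g ∈ Q₀, ∀ x y, β (g • x) (g • y) = β x y)
    (h : Nat.card W = 81) : Nat.card Q₀ ≤ 5 := by
  have : Fact (Nat.Prime 3) := ⟨Nat.prime_three⟩
  have a := FB.dvd hcr (p := 3) (n := 4) h
  have b : Nat.card Q ∣ 13 * (3 ^ 6 * 5) :=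
    FB.odd_dvd (k := 9) ho (by simpa [Fin.prod_univ_four] using a)
  have n13 := FB.no13 (FB.elem hcr (p := 3) (n := 4) h) Q₀ β alt nd inv h
  have b' : Nat.card Q₀ ∣ 3 ^ 6 * 5 :=
    ((Nat.Prime.coprime_iff_not_dvd (by norm_num)).2 n13).symm.dvd_of_dvd_mul_left
      ((card_subgroup_dvd_card Q₀).trans b)
  have five : ∀ d, d ∣ 3 ^ 6 * 5 → ¬ 3 ∣ d → d ∣ 5 := fun d h1 h2 =>
    (((Nat.Prime.coprime_iff_not_dvd Nat.prime_three).2 h2).symm.pow_right 6).dvd_of_dvd_mul_left h1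
  have c := FB.nop hcr (p := 3) (n := 4) h Q₀ fun d h1 h2 => by
    unfold Nat.ModEq at h2
    have h3 := five d (h1.trans b') (by omega)
    have := Nat.le_of_dvd (by norm_num) h3
    interval_cases d <;> omega
  exact Nat.le_of_dvd (by norm_num) (five _ b' c)

end H90.VS
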