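import Mathlib
import Cfsg.Agent.Base
import Cfsg.Agent.Lib.VSt.Defs

/-! # VSt, package TRF: transfer along a system of imprimitivity -/

set_option autoImplicit false
set_option linter.unusedSectionVars false

universe u

namespace H90.VS

open Subgroup MulAction H83.Base
open scoped commutatorElement

theorem Sys.block {G V : Type u} [Group G] [Finite G] [AddCommGroup V] [Finite V]
    [DistribMulAction G V] {M : Subgroup G} {π : G ⧸ M → V →+ V} (hS : Sys M π) (hi : Irr G V) :
    ∃ (U : Type u) (_ : AddCommGroup U) (_ : Finite U) (_ : DistribMulAction M U),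
      Irr M U ∧ Nat.card V = Nat.card U ^ M.index ∧
      (∀ j k, Tr (⊤ : Subgroup G) k (G ⧸ M) → Tr (⊤ : Subgroup M) j U →
        Tr (⊤ : Subgroup G) (k + j) V) ∧
      ∀ j k s t, Co k s t G (G ⧸ M) → Mo j s M U → Mo (k + j) t G V := by
  classical
  letI : Fintype (G ⧸ M) := Fintype.ofFinite _
  obtain ⟨o, st, out⟩ : ∃ o : G ⧸ M, (∀ g : G, g • o = o ↔ g ∈ M) ∧ ∀ a : G ⧸ M, a.out • o = a :=
    ⟨((1 : G) : G ⧸ M), fun g => by
      rw [MulAction.Quotient.smul_mk, QuotientGroup.eq]; simp, fun a => by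
      rw [MulAction.Quotient.smul_mk, smul_eq_mul, mul_one, QuotientGroup.out_eq']⟩
  have sum : ∀ v, ∑ a, π a v = v := fun v => (finsum_eq_sum_of_fintype _).symm.trans (hS.sum v)
  let U : AddSubgroup V := (π o).eqLocus (AddMonoidHom.id V)
  have mU : ∀ v, v ∈ U ↔ π o v = v := fun v => Iff.rfl
  have mv : ∀ (g : G) (x : U), π (g • o) (g • (x : V)) = g • (x : V) := fun g x => by
    rw [hS.eqv, (mU _).1 x.2]
  have hU : Invt M U := fun m v hv => by
    have := mv m ⟨v, hv⟩
    rwa [(st m).2 m.2] at this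
  letI := subAct M U hU
  have sm : ∀ (m : M) (x : U), ((m • x : U) : V) = (m : G) • (x : V) := fun _ _ => rfl
  have co : ∀ (a : G ⧸ M) v, a.out⁻¹ • π a v ∈ U := fun a v => by
    rw [mU, ← inv_smul_smul a.out o, out, hS.eqv, hS.idem]
  have proj : ∀ (f : G ⧸ M → U) a, π a (∑ b, b.out • (f b : V)) = a.out • (f a : V) := fun f a => by
    have e : ∀ b : G ⧸ M, π b (b.out • (f b : V)) = b.out • (f b : V) := fun b => by
      have := mv b.out (f b)
      rwa [out] at this
    rw [map_sum, Finset.sum_eq_single a (fun b _ hb => by rw [← e b, hS.orth a b hb.symm])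
      (by simp), e]
  have mM : ∀ (h : G) (a : G ⧸ M), (h • a).out⁻¹ * h * a.out ∈ M := fun h a => by
    rw [← st, mul_smul, mul_smul, out, inv_smul_eq_iff, out]
  have key : ∀ (j : ℕ) (H : Subgroup G) (H' : G ⧸ M → Subgroup M), (∀ h ∈ H, ∀ a : G ⧸ M, h • a = a) →
      (∀ a, ∀ h ∈ H, ∀ m : M, (m : G) = a.out⁻¹ * h * a.out → m ∈ H' a) → (∀ a, Tr (H' a) j U) →
      Tr H j V := fun j H H' h1 h2 h3 g hg v => by
    rw [← sum v, Finset.smul_sum]
    refine Finset.sum_congr rfl fun a _ => ?_
    let ψ : H →* M := MonoidHom.mk' (fun h => ⟨a.out⁻¹ * h * a.out, by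
      have := mM h a
      rwa [h1 h h.2] at this⟩) fun x y => Subtype.ext (by simp [mul_assoc])
    have := Tr.push ψ (fun x : U => a.out • (x : V)) (fun h x => by
      change a.out • (a.out⁻¹ * h * a.out) • (x : V) = _
      rw [mul_smul, mul_smul, smul_inv_smul]) (fun h => h2 a h h.2 _ rfl) (h3 a) g hg ⟨_, co a v⟩
    simpa only [smul_inv_smul] using this
  refine ⟨U, inferInstance, inferInstance, inferInstance, ⟨?_, fun U' hU' => ?_⟩, ?_,
    fun j k h1 h2 => ?_, ?_⟩
  · haveI := hi.1
    by_contra hc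
    haveI := not_nontrivial_iff_subsingleton.1 hc
    obtain ⟨v, hv⟩ := exists_ne (0 : V)
    refine hv (sum v ▸ Finset.sum_eq_zero fun a _ => ?_)
    have : a.out⁻¹ • π a v = 0 := congrArg Subtype.val (Subsingleton.elim (⟨_, co a v⟩ : U) 0)
    exact (smul_eq_zero_iff_eq _).1 this
  · let W : AddSubgroup V :=
      { carrier := {v | ∀ g : G, π o (g • v) ∈ U'.map U.subtype}
        add_mem' := fun {v w} hv hw g => by rw [smul_add, map_add]; exact add_mem (hv g) (hw g)
        zero_mem' := fun g => by rw [smul_zero, map_zero]; exact zero_mem _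
        neg_mem' := fun {v} hv g => by rw [smul_neg, map_neg]; exact neg_mem (hv g) }
    refine (hi.2 W fun g v hv g' => by rw [smul_smul]; exact hv _).imp (fun h => ?_) fun h => ?_
    · refine eq_bot_iff.2 fun x hx => Subtype.ext (h.le (fun g => ?_ : (x : V) ∈ W))
      by_cases hg : g ∈ M
      · refine ⟨(⟨g, hg⟩ : M) • x, hU' _ _ hx, ?_⟩
        exact ((mU _).1 ((⟨g, hg⟩ : M) • x).2).symm
      · rw [← mv g x, hS.orth _ _ fun e => hg ((st g).1 e.symm)]
        exact zero_mem _
    · refine eq_top_iff.2 fun x _ => ?_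
      obtain ⟨y, hy, e⟩ := (h.ge (AddSubgroup.mem_top (x : V)) : (x : V) ∈ W) 1
      rw [one_smul, (mU _).1 x.2] at e
      exact Subtype.ext (p := fun v => v ∈ U) e ▸ hy
  · rw [index, ← Nat.card_fun]
    exact Nat.card_congr
      { toFun := fun v a => ⟨_, co a v⟩
        invFun := fun f => ∑ b, b.out • (f b : V)
        left_inv := fun v => by simp only [smul_inv_smul, sum]
        right_inv := fun f => funext fun a => Subtype.ext (by simp only [proj, inv_smul_smul]) }
  · have := key j (ds ⊤ k) (fun _ => ⊤) h1 (fun _ _ _ _ _ => mem_top _) fun _ => h2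
    rwa [Tr, ds_ds] at this
  · rintro j k s t ⟨F, f1, f2⟩ ⟨x, x1, x2⟩
    have tr : ∀ (h : G) c c', h • ∑ b, b.out • (x (F c b) : V) = ∑ b, b.out • (x (F c' b) : V) →
        ∀ a, (⟨_, mM h a⟩ : M) • x (F c a) = x (F c' (h • a)) := fun h c c' e a => by
      have e1 := hS.eqv h a (∑ b, b.out • (x (F c b) : V))
      rw [e, proj (fun b => x (F c' b)), proj (fun b => x (F c b))] at e1
      refine Subtype.ext ((sm _ _).trans ?_)
      rw [mul_smul, mul_smul, ← e1, inv_smul_smul]
    refine ⟨fun c => ∑ b, b.out • (x (F c b) : V),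
      fun h c c' e => f1 h c c' fun a => (x1 _ _ _ (tr h c c' e a)).symm, fun c => ?_⟩
    have h1 := f2 c (stabilizer G (∑ b, b.out • (x (F c b) : V)))
      fun h hh a => (x1 _ _ _ (tr h c c hh a)).symm
    have := key j (ds _ k) (fun a => stabilizer M (x (F c a))) h1 (fun a h hh m hm => ?_)
      fun a => x2 _
    · rwa [Tr, ds_ds] at this
    · have e := tr h c c (ds_le _ _ hh) a
      have e2 := h1 h hh a
      rw [show (⟨_, mM h a⟩ : M) = m from Subtype.ext (by rw [hm]; simp only [e2]), e2] at e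
      exact e

end H90.VS
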